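import Cfsg.Agent.Forms.SympGen
import Cfsg.Agent.Spec.SLGen

/-!
Two elements generating a symplectic group over a finite field.
-/

set_option autoImplicit false

open scoped Matrix

namespace Cfsg.Agent.Spec.TwoGen.Symp

open Cfsg.Agent.Forms

variable {F : Type*} [Field F] {m : ℕ}

/-- The symplectic group. -/
abbrev Sp (m : ℕ) (F : Type*) [Field F] := Matrix.symplecticGroup (Fin m) F

/-- The action on vectors. -/
def act (A : Sp m F) (v : Fin m ⊕ Fin m → F) : Fin m ⊕ Fin m → F :=
  (A : Matrix (Fin m ⊕ Fin m) (Fin m ⊕ Fin m) F) *ᵥ v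

theorem act_one (v : Fin m ⊕ Fin m → F) : act 1 v = v := Matrix.one_mulVec v

theorem act_mul (A B : Sp m F) (v : Fin m ⊕ Fin m → F) : act (A * B) v = act A (act B v) :=
  (Matrix.mulVec_mulVec v _ _).symm

theorem act_form (A : Sp m F) (u v : Fin m ⊕ Fin m → F) :
    Cfsg.sympForm m F (act A u) (act A v) = Cfsg.sympForm m F u v :=
  mem_symplecticGroup_iff_sympForm.1 A.2 u v

theorem ext_act {A B : Sp m F} (h : ∀ v, act A v = act B v) : A = B :=
  Subtype.ext (Matrix.ext_of_mulVec_single fun i => h _)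

theorem act_inv_act (A : Sp m F) (v : Fin m ⊕ Fin m → F) : act A⁻¹ (act A v) = v := by
  rw [← act_mul, inv_mul_cancel, act_one]

theorem act_smul (A : Sp m F) (c : F) (v : Fin m ⊕ Fin m → F) : act A (c • v) = c • act A v :=
  Matrix.mulVec_smul _ _ _

theorem act_add (A : Sp m F) (u v : Fin m ⊕ Fin m → F) : act A (u + v) = act A u + act A v :=
  Matrix.mulVec_add _ _ _

/-- A symplectic map given by its action on vectors. -/
noncomputable def ofLin (f : (Fin m ⊕ Fin m → F) →ₗ[F] (Fin m ⊕ Fin m → F))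
    (hf : ∀ u v, Cfsg.sympForm m F (f u) (f v) = Cfsg.sympForm m F u v) : Sp m F :=
  ⟨LinearMap.toMatrix' f, mem_symplecticGroup_iff_sympForm.2 fun u v => by
    rw [LinearMap.toMatrix'_mulVec, LinearMap.toMatrix'_mulVec, hf]⟩

theorem act_ofLin (f : (Fin m ⊕ Fin m → F) →ₗ[F] (Fin m ⊕ Fin m → F))
    (hf : ∀ u v, Cfsg.sympForm m F (f u) (f v) = Cfsg.sympForm m F u v) (v : Fin m ⊕ Fin m → F) :
    act (ofLin f hf) v = f v :=
  LinearMap.toMatrix'_mulVec f v

/-- The transvection. -/
def tr (v : Fin m ⊕ Fin m → F) (c : F) : Sp m F := ⟨_, sympTransvection_mem v c⟩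

theorem act_tr (v : Fin m ⊕ Fin m → F) (c : F) (x : Fin m ⊕ Fin m → F) :
    act (tr v c) x = x + (c * Cfsg.sympForm m F x v) • v :=
  sympTransvection_mulVec v c x

theorem tr_mul (v : Fin m ⊕ Fin m → F) (c d : F) : tr v c * tr v d = tr v (c + d) :=
  Subtype.ext (sympTransvection_mul v c d)

theorem tr_zero (v : Fin m ⊕ Fin m → F) : tr v (0 : F) = 1 :=
  ext_act fun x => by rw [act_tr, act_one, zero_mul, zero_smul, add_zero]

theorem tr_inv (v : Fin m ⊕ Fin m → F) (c : F) : (tr v c)⁻¹ = tr v (-c) :=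
  inv_eq_of_mul_eq_one_right (by rw [tr_mul, add_neg_cancel, tr_zero])

theorem tr_smul (v : Fin m ⊕ Fin m → F) (a c : F) : tr (a • v) c = tr v (c * a ^ 2) :=
  Subtype.ext (sympTransvection_smul v a c)

theorem tr_conj (A : Sp m F) (v : Fin m ⊕ Fin m → F) (c : F) :
    A * tr v c * A⁻¹ = tr (act A v) c := by
  rw [mul_inv_eq_iff_eq_mul]
  refine ext_act fun x => ?_
  rw [act_mul, act_mul, act_tr, act_tr, act_form, act_add, act_smul]

theorem tr_pow (v : Fin m ⊕ Fin m → F) (c : F) : ∀ k : ℕ, tr v c ^ k = tr v ((k : F) * c)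
  | 0 => by rw [pow_zero, Nat.cast_zero, zero_mul, tr_zero]
  | k + 1 => by rw [pow_succ, tr_pow v c k, tr_mul, Nat.cast_succ, add_mul, one_mul]

/-- The linear map of a Siegel transvection. -/
def sgLin (p q : Fin m ⊕ Fin m → F) (t : F) : (Fin m ⊕ Fin m → F) →ₗ[F] (Fin m ⊕ Fin m → F) :=
  LinearMap.id + ((t • (sympBil m F).flip p).smulRight q + (t • (sympBil m F).flip q).smulRight p)

theorem sgLin_apply (p q : Fin m ⊕ Fin m → F) (t : F) (v : Fin m ⊕ Fin m → F) :
    sgLin p q t v = v + ((t * Cfsg.sympForm m F v p) • q + (t * Cfsg.sympForm m F v q) • p) := by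
  simp [sgLin, sympBil_apply]

theorem sgLin_form {p q : Fin m ⊕ Fin m → F} (h : Cfsg.sympForm m F p q = 0) (t : F)
    (u v : Fin m ⊕ Fin m → F) :
    Cfsg.sympForm m F (sgLin p q t u) (sgLin p q t v) = Cfsg.sympForm m F u v := by
  have h' : Cfsg.sympForm m F q p = 0 := by rw [sympForm_swap, h, neg_zero]
  simp only [sgLin_apply, ← sympBil_apply, map_add, map_smul, LinearMap.add_apply, LinearMap.smul_apply,
    smul_eq_mul]
  simp only [sympBil_apply, sympForm_self, h, h', sympForm_swap p v, sympForm_swap q v]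
  ring

/-- The Siegel transvection of an orthogonal pair. -/
noncomputable def sg {p q : Fin m ⊕ Fin m → F} (h : Cfsg.sympForm m F p q = 0) (t : F) : Sp m F :=
  ofLin (sgLin p q t) (sgLin_form h t)

theorem act_sg {p q : Fin m ⊕ Fin m → F} (h : Cfsg.sympForm m F p q = 0) (t : F) (v : Fin m ⊕ Fin m → F) :
    act (sg h t) v = v + ((t * Cfsg.sympForm m F v p) • q + (t * Cfsg.sympForm m F v q) • p) := by
  rw [sg, act_ofLin, sgLin_apply]

theorem sg_mul {p q : Fin m ⊕ Fin m → F} (h : Cfsg.sympForm m F p q = 0) (s t : F) :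
    sg h s * sg h t = sg h (s + t) := by
  refine ext_act fun v => ?_
  have h' : Cfsg.sympForm m F q p = 0 := by rw [sympForm_swap, h, neg_zero]
  simp only [act_mul, act_sg, ← sympBil_apply, map_add, map_smul, LinearMap.add_apply, LinearMap.smul_apply,
    smul_eq_mul]
  simp only [sympBil_apply, sympForm_self, h, h', mul_zero, add_zero, add_mul, add_smul]
  abel

theorem sg_zero {p q : Fin m ⊕ Fin m → F} (h : Cfsg.sympForm m F p q = 0) : sg h (0 : F) = 1 :=
  ext_act fun v => by simp [act_sg, act_one]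

theorem sg_inv {p q : Fin m ⊕ Fin m → F} (h : Cfsg.sympForm m F p q = 0) (t : F) :
    (sg h t)⁻¹ = sg h (-t) :=
  inv_eq_of_mul_eq_one_right (by rw [sg_mul, add_neg_cancel, sg_zero])

theorem sg_conj {p q : Fin m ⊕ Fin m → F} (h : Cfsg.sympForm m F p q = 0) (A : Sp m F) (a b t : F)
    (hp : act A p = a • p) (hq : act A q = b • q) : A * sg h t * A⁻¹ = sg h (a * b * t) := by
  rw [mul_inv_eq_iff_eq_mul]
  refine ext_act fun x => ?_
  have e1 : Cfsg.sympForm m F x p = a * Cfsg.sympForm m F (act A x) p := by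
    rw [← act_form A x p, hp, ← sympBil_apply, map_smul, sympBil_apply, smul_eq_mul]
  have e2 : Cfsg.sympForm m F x q = b * Cfsg.sympForm m F (act A x) q := by
    rw [← act_form A x q, hq, ← sympBil_apply, map_smul, sympBil_apply, smul_eq_mul]
  simp only [act_mul, act_sg, act_add, act_smul, hp, hq, smul_smul, e1, e2]
  congr 2 <;> congr 1 <;> ring

/-- The diagonal map. -/
def diaLin (d : Fin m → Fˣ) : (Fin m ⊕ Fin m → F) →ₗ[F] (Fin m ⊕ Fin m → F) where
  toFun v := Sum.elim (fun i => (d i : F) * v (.inl i)) (fun i => ((d i)⁻¹ : Fˣ) * v (.inr i))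
  map_add' u v := by funext i; cases i <;> simp [mul_add]
  map_smul' c v := by funext i; cases i <;> simp [mul_left_comm]

/-- The diagonal element. -/
noncomputable def dia (d : Fin m → Fˣ) : Sp m F :=
  ofLin (diaLin d) fun u v => by
    simp only [sympForm_apply, diaLin, LinearMap.coe_mk, AddHom.coe_mk, Sum.elim_inl, Sum.elim_inr]
    refine Finset.sum_congr rfl fun i _ => ?_
    have := (d i).inv_mul
    linear_combination (u (.inr i) * v (.inl i) - u (.inl i) * v (.inr i)) * this

theorem act_dia (d : Fin m → Fˣ) (v : Fin m ⊕ Fin m → F) :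
    act (dia d) v = Sum.elim (fun i => (d i : F) * v (.inl i)) (fun i => ((d i)⁻¹ : Fˣ) * v (.inr i)) := by
  rw [dia, act_ofLin]
  rfl

theorem dia_mul (d e : Fin m → Fˣ) : dia d * dia e = dia (d * e) :=
  ext_act fun v => by
    funext i
    cases i <;> simp [act_mul, act_dia, mul_assoc, mul_left_comm]

theorem dia_one : dia (1 : Fin m → Fˣ) = 1 :=
  ext_act fun v => by funext i; cases i <;> simp [act_dia, act_one]

theorem dia_pow (d : Fin m → Fˣ) : ∀ k : ℕ, dia d ^ k = dia (d ^ k)
  | 0 => by rw [pow_zero, pow_zero, dia_one]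
  | k + 1 => by rw [pow_succ, dia_pow d k, dia_mul, pow_succ]

/-- The basis vector `l_i`. -/
def el (i : Fin m) : Fin m ⊕ Fin m → F := Pi.single (.inl i) 1

/-- The basis vector `r_i`. -/
def er (i : Fin m) : Fin m ⊕ Fin m → F := Pi.single (.inr i) 1

theorem form_el (v : Fin m ⊕ Fin m → F) (i : Fin m) : Cfsg.sympForm m F v (el i) = v (.inr i) := by
  simp [sympForm_apply, el, Pi.single_apply]

theorem form_er (v : Fin m ⊕ Fin m → F) (i : Fin m) : Cfsg.sympForm m F v (er i) = -v (.inl i) := by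
  simp [sympForm_apply, er, Pi.single_apply]

/-- The parameters of a transvection direction inside a subgroup. -/
def par (H : Subgroup (Sp m F)) (v : Fin m ⊕ Fin m → F) : AddSubgroup F where
  carrier := {t | tr v t ∈ H}
  zero_mem' := by show tr v (0 : F) ∈ H; rw [tr_zero]; exact one_mem H
  add_mem' := fun {a b} ha hb => by
    show tr v (a + b) ∈ H
    rw [← tr_mul]; exact mul_mem ha hb
  neg_mem' := fun {a} ha => by
    show tr v (-a) ∈ H
    rw [← tr_inv]; exact inv_mem ha

section Cycle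

variable {k : ℕ}

/-- The linear map of the signed cycle. -/
def cycLin : (Fin (k + 1) ⊕ Fin (k + 1) → F) →ₗ[F] (Fin (k + 1) ⊕ Fin (k + 1) → F) where
  toFun v := Sum.elim (Fin.cases (-v (.inr (Fin.last k))) fun j => v (.inl j.castSucc))
    (Fin.cases (v (.inl (Fin.last k))) fun j => v (.inr j.castSucc))
  map_add' u v := by
    funext i
    rcases i with i | i <;> induction i using Fin.cases <;> simp [add_comm]
  map_smul' c v := by
    funext i
    rcases i with i | i <;> induction i using Fin.cases <;> simp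

theorem cycLin_form (u v : Fin (k + 1) ⊕ Fin (k + 1) → F) :
    Cfsg.sympForm (k + 1) F (cycLin u) (cycLin v) = Cfsg.sympForm (k + 1) F u v := by
  rw [sympForm_apply, sympForm_apply, Fin.sum_univ_succ, Fin.sum_univ_castSucc, add_comm]
  simp only [cycLin, LinearMap.coe_mk, AddHom.coe_mk, Sum.elim_inl, Sum.elim_inr, Fin.cases_zero,
    Fin.cases_succ]
  ring

/-- The signed cycle. -/
noncomputable def cyc : Sp (k + 1) F := ofLin cycLin cycLin_form

theorem act_cyc (v : Fin (k + 1) ⊕ Fin (k + 1) → F) :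
    act cyc v = Sum.elim (Fin.cases (-v (.inr (Fin.last k))) fun j => v (.inl j.castSucc))
      (Fin.cases (v (.inl (Fin.last k))) fun j => v (.inr j.castSucc)) := by
  rw [cyc, act_ofLin]
  rfl

theorem cyc_el (j : Fin k) : act cyc (el (F := F) j.castSucc) = el j.succ := by
  funext i
  rcases i with i | i <;> induction i using Fin.cases <;>
    simp [act_cyc, el, Pi.single_apply, Fin.succ_ne_zero, Fin.castSucc_inj, (Fin.castSucc_lt_last j).ne',
      (Fin.succ_ne_zero j).symm]

theorem cyc_er (j : Fin k) : act cyc (er (F := F) j.castSucc) = er j.succ := by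
  funext i
  rcases i with i | i <;> induction i using Fin.cases <;>
    simp [act_cyc, er, Pi.single_apply, Fin.succ_ne_zero, Fin.castSucc_inj, (Fin.castSucc_lt_last j).ne',
      (Fin.succ_ne_zero j).symm]

theorem cyc_el_last : act cyc (el (F := F) (Fin.last k)) = er 0 := by
  funext i
  rcases i with i | i <;> induction i using Fin.cases <;>
    simp [act_cyc, el, er, Pi.single_apply, Fin.succ_ne_zero, (Fin.castSucc_lt_last _).ne]

theorem cyc_er_last : act cyc (er (F := F) (Fin.last k)) = (-1 : F) • el 0 := by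
  funext i
  rcases i with i | i <;> induction i using Fin.cases <;>
    simp [act_cyc, el, er, Pi.single_apply, Fin.succ_ne_zero, (Fin.castSucc_lt_last _).ne]

theorem tr_cyc_mem {H : Subgroup (Sp (k + 1) F)} (hn : cyc ∈ H) {v : Fin (k + 1) ⊕ Fin (k + 1) → F} {t : F}
    (h : tr v t ∈ H) : tr (act cyc v) t ∈ H := by
  rw [← tr_conj]
  exact mul_mem (mul_mem hn h) (inv_mem hn)

theorem tr_el_up {H : Subgroup (Sp (k + 1) F)} (hn : cyc ∈ H) {i : Fin (k + 1)} {t : F}
    (h : tr (el i) t ∈ H) : ∀ j, i ≤ j → tr (el j) t ∈ H := by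
  intro j
  induction j using Fin.induction with
  | zero => intro hij; rwa [le_antisymm hij (Fin.zero_le _)] at h
  | succ j ih =>
    intro hij
    rcases eq_or_lt_of_le hij with rfl | hlt
    · exact h
    · rw [← cyc_el]
      exact tr_cyc_mem hn (ih (by rwa [Fin.le_castSucc_iff]))

theorem tr_all {H : Subgroup (Sp (k + 1) F)} (hn : cyc ∈ H) (h : ∀ t : F, tr (er 0) t ∈ H) :
    (∀ (i : Fin (k + 1)) (t : F), tr (el i) t ∈ H) ∧ ∀ (i : Fin (k + 1)) (t : F), tr (er i) t ∈ H := by
  have hr : ∀ (i : Fin (k + 1)) (t : F), tr (er i) t ∈ H := by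
    intro i
    induction i using Fin.induction with
    | zero => exact h
    | succ j ih =>
      intro t
      rw [← cyc_er]
      exact tr_cyc_mem hn (ih t)
  refine ⟨fun i t => tr_el_up hn (i := 0) ?_ i (Fin.zero_le _), hr⟩
  have := tr_cyc_mem hn (hr (Fin.last k) t)
  rwa [cyc_er_last, tr_smul, neg_one_sq, mul_one] at this

end Cycle

section Generation

variable {k : ℕ} {H : Subgroup (Sp (k + 1) F)}

theorem plane_move (hl : ∀ (i : Fin (k + 1)) (t : F), tr (el i) t ∈ H)
    (hr : ∀ (i : Fin (k + 1)) (t : F), tr (er i) t ∈ H) (v : Fin (k + 1) ⊕ Fin (k + 1) → F) (i : Fin (k + 1))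
    (hv : v (.inl i) ≠ 0 ∨ v (.inr i) ≠ 0) {a b : F} (hab : a ≠ 0 ∨ b ≠ 0) :
    ∃ A ∈ H, act A v (.inl i) = a ∧ act A v (.inr i) = b ∧
      ∀ j, j ≠ i → act A v (.inl j) = v (.inl j) ∧ act A v (.inr j) = v (.inr j) := by
  -- one step in each coordinate
  have setl : ∀ (u : Fin (k + 1) ⊕ Fin (k + 1) → F) (x : F), u (.inr i) ≠ 0 →
      ∃ A ∈ H, act A u = Function.update u (.inl i) x := by
    intro u x hu
    refine ⟨tr (el i) ((x - u (.inl i)) / u (.inr i)), hl _ _, ?_⟩
    rw [act_tr, form_el, div_mul_cancel₀ _ hu]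
    funext j
    rcases eq_or_ne j (.inl i) with rfl | hj
    · simp [el]
    · simp [el, hj]
  have setr : ∀ (u : Fin (k + 1) ⊕ Fin (k + 1) → F) (x : F), u (.inl i) ≠ 0 →
      ∃ A ∈ H, act A u = Function.update u (.inr i) x := by
    intro u x hu
    refine ⟨tr (er i) (-((x - u (.inr i)) / u (.inl i))), hr _ _, ?_⟩
    rw [act_tr, form_er, neg_mul_neg, div_mul_cancel₀ _ hu]
    funext j
    rcases eq_or_ne j (.inr i) with rfl | hj
    · simp [er]
    · simp [er, hj]
  obtain ⟨A₁, hA₁, hl1, hrest⟩ : ∃ A₁ ∈ H, act A₁ v (.inl i) ≠ 0 ∧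
      ∀ j, j ≠ i → act A₁ v (.inl j) = v (.inl j) ∧ act A₁ v (.inr j) = v (.inr j) := by
    by_cases h : v (.inl i) = 0
    · obtain ⟨A, hA, e⟩ := setl v 1 (hv.resolve_left (fun hh => hh h))
      exact ⟨A, hA, by simp [e], fun j hj => by simp [e, hj]⟩
    · exact ⟨1, one_mem H, by rwa [act_one], fun j _ => by simp [act_one]⟩
  by_cases ha : a = 0
  · have hb := hab.resolve_left (fun hh => hh ha)
    obtain ⟨A₂, hA₂, e₂⟩ := setr (act A₁ v) b hl1
    obtain ⟨A₃, hA₃, e₃⟩ := setl (act A₂ (act A₁ v)) a (by simp [e₂, hb])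
    refine ⟨A₃ * (A₂ * A₁), mul_mem hA₃ (mul_mem hA₂ hA₁), ?_, ?_, fun j hj => ?_⟩
    · rw [act_mul, act_mul, e₃]; simp
    · rw [act_mul, act_mul, e₃, e₂]; simp
    · rw [act_mul, act_mul, e₃, e₂]; simp [hj, hrest j hj]
  · obtain ⟨A₂, hA₂, e₂⟩ := setr (act A₁ v) 1 hl1
    obtain ⟨A₃, hA₃, e₃⟩ := setl (act A₂ (act A₁ v)) a (by simp [e₂])
    obtain ⟨A₄, hA₄, e₄⟩ := setr (act A₃ (act A₂ (act A₁ v))) b (by simp [e₃, ha])
    refine ⟨A₄ * (A₃ * (A₂ * A₁)), mul_mem hA₄ (mul_mem hA₃ (mul_mem hA₂ hA₁)), ?_, ?_, fun j hj => ?_⟩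
    · rw [act_mul, act_mul, act_mul, e₄, e₃]; simp
    · rw [act_mul, act_mul, act_mul, e₄]; simp
    · rw [act_mul, act_mul, act_mul, e₄, e₃, e₂]; simp [hj, hrest j hj]

theorem eq_top_of_gens (hn : cyc ∈ H) (h0 : ∀ t : F, tr (er 0) t ∈ H) (hk : 0 < k) {c : F} (hc : c ≠ 0)
    (hw : tr (el 0 + el 1) c ∈ H) : H = ⊤ := by
  obtain ⟨hl, hr⟩ := tr_all hn h0
  have hlink : ∀ j : Fin k, tr (el j.castSucc + el j.succ) c ∈ H := by
    obtain ⟨k, rfl⟩ : ∃ k', k = k' + 1 := ⟨k - 1, by omega⟩
    intro j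
    induction j using Fin.induction with
    | zero => simpa using hw
    | succ j ih =>
      have := tr_cyc_mem hn ih
      rwa [act_add, cyc_el, Fin.succ_castSucc, cyc_el] at this
  have main : ∀ (n : ℕ) (v : Fin (k + 1) ⊕ Fin (k + 1) → F), v ≠ 0 →
      (∀ j : Fin (k + 1), n < j.val → v (.inl j) = 0 ∧ v (.inr j) = 0) →
      ∃ A ∈ H, act A v = el 0 := by
    intro n
    induction n with
    | zero =>
      intro v hv0 hz
      have h00 : v (.inl 0) ≠ 0 ∨ v (.inr 0) ≠ 0 := by
        by_contra h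
        push Not at h
        apply hv0
        funext j
        rcases j with j | j <;> rcases eq_or_ne j 0 with rfl | hj
        · exact h.1
        · exact (hz j (Nat.pos_of_ne_zero fun e => hj (Fin.ext e))).1
        · exact h.2
        · exact (hz j (Nat.pos_of_ne_zero fun e => hj (Fin.ext e))).2
      obtain ⟨A, hA, e1, e2, e3⟩ := plane_move hl hr v 0 h00 (a := 1) (b := 0) (Or.inl one_ne_zero)
      refine ⟨A, hA, ?_⟩
      funext j
      rcases j with j | j <;> rcases eq_or_ne j 0 with rfl | hj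
      · simp [e1, el]
      · simp [(e3 j hj).1, el, hj, (hz j (Nat.pos_of_ne_zero fun e => hj (Fin.ext e))).1]
      · simp [e2, el]
      · simp [(e3 j hj).2, el, (hz j (Nat.pos_of_ne_zero fun e => hj (Fin.ext e))).2]
    | succ n ih =>
      intro v hv0 hz
      by_cases hn1 : n + 1 < k + 1
      swap
      · exact ih v hv0 fun j hj => absurd j.isLt (by omega)
      set j₀ : Fin k := ⟨n, by omega⟩ with hj₀
      set p := j₀.castSucc with hp
      set q := j₀.succ with hq
      have hpq : p ≠ q := (Fin.castSucc_lt_succ : j₀.castSucc < j₀.succ).ne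
      by_cases hq0 : v (.inl q) = 0 ∧ v (.inr q) = 0
      · refine ih v hv0 fun j hj => ?_
        rcases eq_or_ne j q with rfl | hjq
        · exact hq0
        · refine hz j ?_
          have hne : j.val ≠ n + 1 := fun e => hjq (Fin.ext (by simp [hq, hj₀, e]))
          omega
      rw [not_and_or] at hq0
      -- a vector in which both planes are non-zero
      obtain ⟨B, hB, hBp, hBq, hBr⟩ : ∃ B ∈ H, (act B v (.inl p) ≠ 0 ∨ act B v (.inr p) ≠ 0) ∧
          (act B v (.inl q) ≠ 0 ∨ act B v (.inr q) ≠ 0) ∧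
          ∀ j, j ≠ p → j ≠ q → act B v (.inl j) = v (.inl j) ∧ act B v (.inr j) = v (.inr j) := by
        by_cases hp0 : v (.inl p) = 0 ∧ v (.inr p) = 0
        swap
        · rw [not_and_or] at hp0
          exact ⟨1, one_mem H, by simpa [act_one] using hp0, by simpa [act_one] using hq0, fun j _ _ => by simp [act_one]⟩
        obtain ⟨A, hA, e1, e2, e3⟩ := plane_move hl hr v q hq0 (a := 0) (b := 1) (Or.inr one_ne_zero)
        refine ⟨tr (el p + el q) c * A, mul_mem (hlink j₀) hA, ?_, ?_, fun j hj hj' => ?_⟩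
        · left
          simp only [act_mul, act_tr, ← sympBil_apply, map_add]
          simp only [sympBil_apply, form_el, e2, (e3 p hpq).2, hp0.2]
          simp [el, hpq, (e3 p hpq).1, hp0.1, hc]
        · right
          simp [act_mul, act_tr, e2, el]
        · simp [act_mul, act_tr, el, hj, hj', e3 j hj']
      obtain ⟨A, hA, e1, e2, e3⟩ := plane_move hl hr (act B v) p hBp (a := 0) (b := 1) (Or.inr one_ne_zero)
      have hq' : act A (act B v) (.inl q) ≠ 0 ∨ act A (act B v) (.inr q) ≠ 0 := by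
        rwa [(e3 q hpq.symm).1, (e3 q hpq.symm).2]
      obtain ⟨A', hA', f1, f2, f3⟩ := plane_move hl hr _ q hq' (a := -c) (b := 0) (Or.inl (neg_ne_zero.2 hc))
      set u := act A' (act A (act B v)) with hu
      have hup : u (.inl p) = 0 ∧ u (.inr p) = 1 := by
        rw [(f3 p hpq).1, (f3 p hpq).2]; exact ⟨e1, e2⟩
      have hform : Cfsg.sympForm (k + 1) F u (el p + el q) = 1 := by
        rw [← sympBil_apply, map_add, sympBil_apply, sympBil_apply, form_el, form_el, hup.2, f2, add_zero]
      set u' := act (tr (el p + el q) c) u with hu'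
      have hne : u' ≠ 0 := by
        intro h
        have := congrFun h (.inr p)
        rw [hu', act_tr, hform] at this
        simp [el, hup.2] at this
      obtain ⟨C, hC, hCu⟩ := ih u' hne fun j hj => by
        rw [hu', act_tr, hform]
        rcases eq_or_ne j q with rfl | hjq
        · simp [el, f1, f2, hpq.symm]
        · have hjp : j ≠ p := fun e => by
            rw [e, hp, hj₀] at hj
            simp at hj
          have hne : j.val ≠ n + 1 := fun e => hjq (Fin.ext (by simp [hq, hj₀, e]))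
          simp [el, hjp, hjq, f3 j hjq, e3 j hjp, hBr j hjp hjq, hz j (by omega)]
      exact ⟨C * (tr (el p + el q) c * (A' * (A * B))), mul_mem hC (mul_mem (hlink j₀) (mul_mem hA' (mul_mem hA hB))),
        by rw [act_mul, act_mul, act_mul, act_mul, ← hu, ← hu', hCu]⟩
  rw [eq_top_iff, ← sympTransvectionClosure_eq_top, Subgroup.closure_le]
  rintro A ⟨w, d, hA⟩
  have hAw : A = tr w d := Subtype.ext hA
  by_cases hw0 : w = 0
  · subst hw0
    have : A = 1 := ext_act fun x => by rw [hAw, act_tr, smul_zero, add_zero, act_one]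
    rw [this]
    exact one_mem H
  obtain ⟨B, hB, hBw⟩ := main k w hw0 fun j hj => absurd j.isLt (by omega)
  have hw' : act B⁻¹ (el 0) = w := by rw [← hBw, act_inv_act]
  rw [hAw, ← hw', ← tr_conj]
  exact mul_mem (mul_mem (inv_mem hB) (hl 0 d)) (inv_mem (inv_mem hB))

end Generation

section TwoElements

variable {k : ℕ} [Fintype F]

theorem one_ne_zero' : (1 : Fin (k + 2)) ≠ 0 := by simp [Fin.ext_iff]

/-- Fields with at least three elements. -/
theorem exists_pair_big (hq : 3 ≤ Fintype.card F) :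
    ∃ a b : Sp (k + 2) F, Subgroup.closure {a, b} = ⊤ := by
  classical
  obtain ⟨ζ, hζ⟩ := IsCyclic.exists_generator (α := Fˣ)
  have hζ1 : (ζ : F) ≠ 1 := by
    intro h
    have hone : ζ = 1 := Units.ext h
    have hcard := Nat.card_units F
    rw [← orderOf_eq_card_of_forall_mem_zpowers hζ, hone, orderOf_one, Nat.card_eq_fintype_card] at hcard
    omega
  set p : Fin (k + 2) ⊕ Fin (k + 2) → F := el 0 with hp
  set q : Fin (k + 2) ⊕ Fin (k + 2) → F := el 1 with hq'
  have hpq : Cfsg.sympForm (k + 2) F p q = 0 := by rw [hq', form_el]; simp [hp, el]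
  set d : Fin (k + 2) → Fˣ := Pi.mulSingle 0 ζ with hd
  set h : Sp (k + 2) F := dia d with hh
  set n : Sp (k + 2) F := cyc with hn_def
  have hh0 : act h p = (ζ : F) • p := by
    funext i
    rcases i with i | i
    · rcases eq_or_ne i 0 with rfl | hi
      · simp [hh, act_dia, hp, el, hd]
      · simp [hh, act_dia, hp, el, hi]
    · simp [hh, act_dia, hp, el]
  have hh1 : act h q = (1 : F) • q := by
    funext i
    rcases i with i | i
    · rcases eq_or_ne i 1 with rfl | hi
      · simp [hh, act_dia, hq', el, hd, one_ne_zero']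
      · simp [hh, act_dia, hq', el, hi]
    · simp [hh, act_dia, hq', el]
  set a := h * tr q (1 : F) with ha
  set b := sg hpq (1 : F) * n with hb
  refine ⟨a, b, ?_⟩
  set H := Subgroup.closure {a, b}
  have haH : a ∈ H := Subgroup.subset_closure (Set.mem_insert _ _)
  have hbH : b ∈ H := Subgroup.subset_closure (Set.mem_insert_of_mem _ rfl)
  have hcomm : Commute h (tr q 1) := by
    have := tr_conj h q (1 : F)
    rw [hh1, one_smul, mul_inv_eq_iff_eq_mul] at this
    exact this
  have hhH : h ∈ H := by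
    have e : a ^ Fintype.card F = h := by
      rw [ha, hcomm.mul_pow, tr_pow, FiniteField.cast_card_eq_zero, zero_mul, tr_zero, mul_one, hh, dia_pow]
      congr 1
      funext i
      ext
      rw [Pi.pow_apply, Units.val_pow_eq_pow_val, FiniteField.pow_card]
    rw [← e]
    exact pow_mem haH _
  have htrH : tr q (1 : F) ∈ H := by
    rw [show tr q (1 : F) = h⁻¹ * a by rw [ha, inv_mul_cancel_left]]
    exact mul_mem (inv_mem hhH) haH
  -- the conjugate torus element
  set d' : Fin (k + 2) → Fˣ := Pi.mulSingle 1 ζ with hd'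
  have hnh : n * h * n⁻¹ = dia d' := by
    rw [mul_inv_eq_iff_eq_mul]
    refine ext_act fun v => ?_
    rw [act_mul, act_mul, hh, act_dia, act_dia, hn_def, act_cyc, act_cyc]
    funext i
    have hl : Fin.last (k + 1) ≠ 0 := by simp [Fin.ext_iff]
    rcases i with i | i <;> induction i using Fin.cases with
    | zero => simp [hd, hd', hl, one_ne_zero'.symm]
    | succ j =>
      rcases eq_or_ne j 0 with rfl | hj
      · have e01 : (Pi.mulSingle 1 ζ : Fin (k + 2) → Fˣ) (Fin.succ 0) = ζ := by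
          rw [Fin.succ_zero_eq_one, Pi.mulSingle_eq_same]
        simp only [Sum.elim_inl, Sum.elim_inr, Fin.cases_succ, hd', e01]
        simp [hd]
      · have h1 : j.castSucc ≠ 0 := by simpa [Fin.castSucc_eq_zero_iff] using hj
        have h2 : j.succ ≠ 1 := fun e => hj (Fin.succ_injective _ (by simpa using e))
        simp [hd, hd', h1, h2]
  have hd'p : act (dia d') p = (1 : F) • p := by
    funext i
    rcases i with i | i
    · rcases eq_or_ne i 0 with rfl | hi
      · simp [act_dia, hp, el, hd', one_ne_zero'.symm]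
      · simp [act_dia, hp, el, hi]
    · simp [act_dia, hp, el]
  have hd'q : act (dia d') q = (ζ : F) • q := by
    funext i
    rcases i with i | i
    · rcases eq_or_ne i 1 with rfl | hi
      · simp [act_dia, hq', el, hd']
      · simp [act_dia, hq', el, hi]
    · simp [act_dia, hq', el]
  -- a root element
  have hz : sg hpq ((1 - (ζ : F)) * (1 - (ζ : F))) ∈ H := by
    have e1 : b * h * b⁻¹ = sg hpq (1 - (ζ : F)) * dia d' := by
      have e := sg_conj hpq (dia d') 1 (ζ : F) (-1) hd'p hd'q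
      rw [← sg_inv, one_mul, mul_neg_one] at e
      calc b * h * b⁻¹ = sg hpq 1 * ((n * h * n⁻¹) * (sg hpq 1)⁻¹ * (n * h * n⁻¹)⁻¹) * (n * h * n⁻¹) := by
            rw [hb]; group
        _ = _ := by rw [hnh, e, sg_mul, ← sub_eq_add_neg]
    have e2 := sg_conj hpq h (ζ : F) 1 (-(1 - (ζ : F))) hh0 hh1
    rw [← sg_inv, mul_one] at e2
    have hcd : Commute (dia d') h := by
      rw [hh, Commute, SemiconjBy, dia_mul, dia_mul, mul_comm]
    have e3 : (b * h * b⁻¹) * h * (b * h * b⁻¹)⁻¹ * h⁻¹ = sg hpq ((1 - (ζ : F)) * (1 - (ζ : F))) := by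
      rw [e1]
      calc sg hpq (1 - (ζ : F)) * dia d' * h * (sg hpq (1 - (ζ : F)) * dia d')⁻¹ * h⁻¹
          = sg hpq (1 - (ζ : F)) * (dia d' * h * (dia d')⁻¹) * (sg hpq (1 - (ζ : F)))⁻¹ * h⁻¹ := by group
        _ = sg hpq (1 - (ζ : F)) * (h * (sg hpq (1 - (ζ : F)))⁻¹ * h⁻¹) := by
          rw [hcd.eq, mul_inv_cancel_right]; group
        _ = _ := by rw [e2, sg_mul]; congr 1; ring
    rw [← e3]
    have hbh := mul_mem (mul_mem hbH hhH) (inv_mem hbH)
    exact mul_mem (mul_mem (mul_mem hbh hhH) (inv_mem hbh)) (inv_mem hhH)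
  -- the whole root subgroup
  have hS : ∀ t : F, sg hpq t ∈ H := by
    let P : AddSubgroup F :=
      { carrier := {t | sg hpq t ∈ H}
        zero_mem' := by show sg hpq (0 : F) ∈ H; rw [sg_zero]; exact one_mem H
        add_mem' := fun {x y} hx hy => by show sg hpq (x + y) ∈ H; rw [← sg_mul]; exact mul_mem hx hy
        neg_mem' := fun {x} hx => by show sg hpq (-x) ∈ H; rw [← sg_inv]; exact inv_mem hx }
    have hstep : ∀ j : ℕ, ∀ z ∈ P, (ζ : F) ^ j * z ∈ P := by
      intro j
      induction j with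
      | zero => intro z hz; simpa using hz
      | succ j ih =>
        intro z hz
        rw [pow_succ', mul_assoc]
        show sg hpq _ ∈ H
        have e := sg_conj hpq h (ζ : F) 1 ((ζ : F) ^ j * z) hh0 hh1
        rw [mul_one] at e
        rw [← e]
        exact mul_mem (mul_mem hhH (ih z hz)) (inv_mem hhH)
    intro t
    by_cases ht : t = 0
    · exact ht ▸ P.zero_mem
    have h1ζ : (1 - (ζ : F)) * (1 - (ζ : F)) ≠ 0 := mul_ne_zero (sub_ne_zero.2 (Ne.symm hζ1)) (sub_ne_zero.2 (Ne.symm hζ1))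
    obtain ⟨j, -, hj⟩ : ∃ j, j < orderOf ζ ∧ ζ ^ j = Units.mk0 (t / ((1 - (ζ : F)) * (1 - (ζ : F)))) (div_ne_zero ht h1ζ) := by
      have hm : Units.mk0 (t / ((1 - (ζ : F)) * (1 - (ζ : F)))) (div_ne_zero ht h1ζ) ∈ Submonoid.powers ζ :=
        mem_powers_iff_mem_zpowers.2 (hζ _)
      obtain ⟨j, hj⟩ := hm
      exact ⟨j % orderOf ζ, Nat.mod_lt _ (orderOf_pos ζ), by rw [pow_mod_orderOf]; exact hj⟩
    have := hstep j _ hz
    rw [← Units.val_pow_eq_pow_val, hj, Units.val_mk0, div_mul_cancel₀ _ h1ζ] at this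
    exact this
  have hnH : n ∈ H := by
    rw [show n = (sg hpq 1)⁻¹ * b by rw [hb, inv_mul_cancel_left]]
    exact mul_mem (inv_mem (hS 1)) hbH
  -- the transvections at `r_0`
  have hr0 : ∀ t : F, tr (er (0 : Fin (k + 2))) t ∈ H := by
    have h1 : tr (er (0 : Fin (k + 2))) (1 : F) ∈ H := by
      have := tr_cyc_mem hnH (tr_el_up hnH htrH (Fin.last (k + 1)) (Fin.le_last _))
      rwa [cyc_el_last] at this
    have htop : par H (er (0 : Fin (k + 2))) = ⊤ := by
      refine Spec.SLGen.addSubgroup_eq_top_of_sq _ h1 one_ne_zero fun v hv z hz' => ?_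
      obtain ⟨j, hj⟩ : Units.mk0 v⁻¹ (inv_ne_zero hv) ∈ Submonoid.powers ζ := mem_powers_iff_mem_zpowers.2 (hζ _)
      show tr _ (v ^ 2 * z) ∈ H
      have e : act (h ^ j) (er (0 : Fin (k + 2))) = v • er 0 := by
        rw [hh, dia_pow, act_dia]
        funext i
        rcases i with i | i
        · simp [er]
        · rcases eq_or_ne i 0 with rfl | hi
          · have hj' : (d ^ j) (0 : Fin (k + 2)) = Units.mk0 v⁻¹ (inv_ne_zero hv) := by
              rw [Pi.pow_apply, hd, Pi.mulSingle_eq_same]; exact hj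
            have hj'' := congrArg Units.val hj'
            simp at hj''
            simp [er, hj'']
          · simp [er, hi]
      rw [mul_comm, ← tr_smul, ← e, ← tr_conj]
      exact mul_mem (mul_mem (pow_mem hhH j) hz') (inv_mem (pow_mem hhH j))
    intro t
    have ht : t ∈ par H (er (0 : Fin (k + 2))) := by rw [htop]; exact AddSubgroup.mem_top t
    exact ht
  obtain ⟨hl, -⟩ := tr_all hnH hr0
  -- the link
  refine eq_top_of_gens hnH hr0 (Nat.succ_pos k) (c := 1) one_ne_zero ?_
  set J : Sp (k + 2) F := tr (el 0) 1 * tr (er 0) 1 * tr (el 0) 1 with hJ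
  have hJH : J ∈ H := mul_mem (mul_mem (hl 0 1) (hr0 1)) (hl 0 1)
  have e : act (J * sg hpq 1) (er (0 : Fin (k + 2))) = el 0 + el 1 := by
    funext i
    rcases i with i | i
    · rcases eq_or_ne i 0 with rfl | hi0
      · simp only [hJ, act_mul, act_tr, act_sg, hp, hq', form_el, form_er]; simp [el, er, one_ne_zero']
      · rcases eq_or_ne i 1 with rfl | hi1
        · simp only [hJ, act_mul, act_tr, act_sg, hp, hq', form_el, form_er]; simp [el, er, one_ne_zero']
        · simp only [hJ, act_mul, act_tr, act_sg, hp, hq', form_el, form_er]; simp [el, er, hi0, hi1, one_ne_zero']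
    · rcases eq_or_ne i 0 with rfl | hi0
      · simp only [hJ, act_mul, act_tr, act_sg, hp, hq', form_el, form_er]; simp [el, er, one_ne_zero']
      · simp only [hJ, act_mul, act_tr, act_sg, hp, hq', form_el, form_er]; simp [el, er, hi0, one_ne_zero']
  rw [← e, ← tr_conj]
  exact mul_mem (mul_mem (mul_mem hJH (hS 1)) (hr0 1)) (inv_mem (mul_mem hJH (hS 1)))

/-- The field with two elements. -/
theorem exists_pair_two (hq : Fintype.card F = 2) :
    ∃ a b : Sp (k + 3) F, Subgroup.closure {a, b} = ⊤ := by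
  classical
  haveI : Fact (Nat.Prime 2) := ⟨Nat.prime_two⟩
  haveI : CharP F 2 := charP_of_card_eq_prime hq
  have htwo : ∀ t : F, t = 0 ∨ t = 1 := by
    intro t
    have h := FiniteField.pow_card t
    rw [hq] at h
    have : t * (t - 1) = 0 := by linear_combination h
    rcases mul_eq_zero.1 this with h | h
    · exact Or.inl h
    · exact Or.inr (sub_eq_zero.1 h)
  have h01 : Cfsg.sympForm (k + 3) F (el 0) (er 1) = 0 := by
    rw [form_er]; simp [el]
  have h10 : Cfsg.sympForm (k + 3) F (el 1) (er 0) = 0 := by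
    rw [form_er]; simp [el]
  set M : Sp (k + 3) F := sg h01 1 * sg h10 1 with hM
  set T : Sp (k + 3) F := tr (el 2) 1 with hT
  set n : Sp (k + 3) F := cyc with hn_def
  have h02 : (2 : Fin (k + 3)) ≠ 0 := by
    simp [Fin.ext_iff, Nat.mod_eq_of_lt (show 2 < k + 3 by omega)]
  have h12 : (2 : Fin (k + 3)) ≠ 1 := by
    simp [Fin.ext_iff, Nat.mod_eq_of_lt (show 2 < k + 3 by omega)]
  have h1 : (1 : Fin (k + 3)) ≠ 0 := by simp [Fin.ext_iff]
  have hMact : ∀ v : Fin (k + 3) ⊕ Fin (k + 3) → F, act M v =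
      Sum.elim (fun i => if i = 0 then v (.inl 1) else if i = 1 then v (.inl 0) + v (.inl 1) else v (.inl i))
        (fun i => if i = 0 then v (.inr 0) + v (.inr 1) else if i = 1 then v (.inr 0) else v (.inr i)) := by
    intro v
    simp only [hM, act_mul, act_sg, form_el, form_er, one_mul]
    funext i
    rcases i with i | i <;>
      (rcases eq_or_ne i 0 with rfl | hi0
       · simp [el, er, h1, CharTwo.sub_eq_add, CharTwo.neg_eq, add_assoc, add_comm, add_left_comm,
           CharTwo.add_self_eq_zero, CharTwo.add_cancel_left]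
       rcases eq_or_ne i 1 with rfl | hi1
       · simp [el, er, h1, CharTwo.sub_eq_add, CharTwo.neg_eq, add_assoc, add_comm, add_left_comm,
           CharTwo.add_self_eq_zero, CharTwo.add_cancel_left]
       · simp [el, er, hi0, hi1])
  refine ⟨n, M * T, ?_⟩
  set H := Subgroup.closure {n, M * T}
  have hnH : n ∈ H := Subgroup.subset_closure (Set.mem_insert _ _)
  have hbH : M * T ∈ H := Subgroup.subset_closure (Set.mem_insert_of_mem _ rfl)
  have hM2 : act M (el 2) = el (2 : Fin (k + 3)) := by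
    rw [hMact]
    funext i
    rcases i with i | i
    · rcases eq_or_ne i 0 with rfl | hi0
      · simp [el, h12.symm, h02.symm]
      rcases eq_or_ne i 1 with rfl | hi1
      · simp [el, h1, h12.symm, h02.symm]
      · simp [el, hi0, hi1]
    · rcases eq_or_ne i 0 with rfl | hi0
      · simp [el]
      rcases eq_or_ne i 1 with rfl | hi1
      · simp [el]
      · simp [el, hi0, hi1]
  have hcomm : Commute M T := by
    have := tr_conj M (el (2 : Fin (k + 3))) (1 : F)
    rw [hM2, mul_inv_eq_iff_eq_mul] at this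
    exact this
  have hM3 : M ^ 3 = 1 := by
    refine ext_act fun v => ?_
    rw [pow_succ, pow_succ, pow_one, act_mul, act_mul, act_one, hMact, hMact, hMact]
    funext i
    rcases i with i | i <;>
      (rcases eq_or_ne i 0 with rfl | hi0
       · simp [h1, add_assoc, add_comm, add_left_comm, CharTwo.add_self_eq_zero, CharTwo.add_cancel_left]
       rcases eq_or_ne i 1 with rfl | hi1
       · simp [h1, add_assoc, add_comm, add_left_comm, CharTwo.add_self_eq_zero, CharTwo.add_cancel_left]
       · simp [hi0, hi1])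
  have hT2 : T ^ 2 = 1 := by
    rw [hT, tr_pow, mul_one, show ((2 : ℕ) : F) = 0 from CharP.cast_eq_zero F 2, tr_zero]
  have hTH : T ∈ H := by
    have e : (M * T) ^ 3 = T := by rw [hcomm.mul_pow, hM3, one_mul, pow_succ, hT2, one_mul]
    rw [← e]
    exact pow_mem hbH 3
  have hMH : M ∈ H := by
    rw [show M = M * T * T⁻¹ by rw [mul_inv_cancel_right]]
    exact mul_mem hbH (inv_mem hTH)
  have hr0 : ∀ t : F, tr (er (0 : Fin (k + 3))) t ∈ H := by
    intro t
    rcases htwo t with rfl | rfl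
    · rw [tr_zero]; exact one_mem H
    · have := tr_cyc_mem hnH (tr_el_up hnH hTH (Fin.last (k + 2)) (Fin.le_last _))
      rwa [cyc_el_last] at this
  obtain ⟨hl, -⟩ := tr_all hnH hr0
  refine eq_top_of_gens hnH hr0 (Nat.succ_pos _) (c := 1) one_ne_zero ?_
  have e : act (M * M) (el (0 : Fin (k + 3))) = el 0 + el 1 := by
    rw [act_mul, hMact, hMact]
    funext i
    rcases i with i | i
    · rcases eq_or_ne i 0 with rfl | hi0
      · simp [el, h1]
      rcases eq_or_ne i 1 with rfl | hi1
      · simp [el, h1]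
      · simp [el, hi0, hi1]
    · rcases eq_or_ne i 0 with rfl | hi0
      · simp [el]
      rcases eq_or_ne i 1 with rfl | hi1
      · simp [el]
      · simp [el, hi0, hi1]
  rw [← e, ← tr_conj]
  exact mul_mem (mul_mem (mul_mem hMH hMH) (hl 0 1)) (inv_mem (mul_mem hMH hMH))

end TwoElements

end Cfsg.Agent.Spec.TwoGen.Symp
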