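import Cfsg.Agent.Spec.TwoGen.UnitOps

/-!
Two generators of the special unitary group in dimension at least three.
-/

set_option autoImplicit false

namespace Cfsg.Agent.Spec.TwoGen.Unit2

open Cfsg.Agent.Classical.U

universe u

variable {F : Type u} [Field F] {n q k r : ℕ}

/-- Indices of isotropic vectors. -/
abbrev I (k : ℕ) := Fin (k + 1) ⊕ Fin (k + 1)

/-- The plane of an index. -/
def pl (x : I k) : Fin (k + 1) := x.elim id id

/-- The index map of the Coxeter element. -/
def sgI : I k → I k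
  | .inl i => if i = Fin.last k then .inr 0 else .inl (i + 1)
  | .inr i => if i = Fin.last k then .inl 0 else .inr (i + 1)

/-- The same map, fixing the core. -/
def sg : J k r → J k r := Sum.map sgI id

theorem pl_sgI (x : I k) : pl (sgI x) = pl x + 1 := by
  rcases x with i | i <;> simp only [sgI] <;> split_ifs with h <;> simp [pl, h]

theorem pr_inl (x : I k) : pr (Sum.inl x : J k r) = Sum.inl x.swap := by rcases x with x | x <;> rfl

theorem pl_swap (x : I k) : pl x.swap = pl x := by rcases x with x | x <;> rfl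

theorem sgI_swap (x : I k) : sgI x.swap = (sgI x).swap := by
  rcases x with i | i <;> simp only [sgI, Sum.swap_inl, Sum.swap_inr] <;> split_ifs <;> rfl

theorem sg_pr (x : J k r) : sg (pr x) = pr (sg x) := by
  rcases x with x | x
  · rw [pr_inl]; simp only [sg, Sum.map_inl]; rw [sgI_swap, pr_inl]
  · rfl

theorem sgI_surjective : Function.Surjective (sgI (k := k)) := by
  rintro (j | j) <;> rcases eq_or_ne j 0 with rfl | hj
  · exact ⟨.inr (Fin.last k), by simp [sgI]⟩
  · refine ⟨.inl (j - 1), ?_⟩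
    have : j - 1 ≠ Fin.last k := fun e => hj (by rw [← sub_add_cancel j 1, e, Fin.last_add_one])
    simp [sgI, this]
  · exact ⟨.inl (Fin.last k), by simp [sgI]⟩
  · refine ⟨.inr (j - 1), ?_⟩
    have : j - 1 ≠ Fin.last k := fun e => hj (by rw [← sub_add_cancel j 1, e, Fin.last_add_one])
    simp [sgI, this]

theorem sgI_injective : Function.Injective (sgI (k := k)) :=
  Finite.injective_iff_surjective.2 sgI_surjective

theorem sg_injective : Function.Injective (sg (k := k) (r := r)) :=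
  Sum.map_injective.2 ⟨sgI_injective, Function.injective_id⟩

theorem pl_ne {x y : I k} (h : pl x ≠ pl y) :
    (Sum.inl y : J k r) ≠ Sum.inl x ∧ (Sum.inl y : J k r) ≠ pr (Sum.inl x) :=
  ⟨fun e => h (by rw [Sum.inl.inj e]), fun e => h (by rw [pr_inl] at e; rw [Sum.inl.inj e, pl_swap])⟩

/-- A property closed under the index map that holds somewhere holds everywhere. -/
theorem all_of_one (P : I k → Prop) (hP : ∀ x, P x → P (sgI x)) {x₀ : I k} (h : P x₀) (x : I k) : P x := by
  classical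
  have hback : ∀ y, P (sgI y) → P y := by
    intro y hy
    have himg : (Finset.univ.filter P).image sgI = Finset.univ.filter P :=
      Finset.eq_of_subset_of_card_le (fun z hz => by
        simp only [Finset.mem_image, Finset.mem_filter, Finset.mem_univ, true_and] at hz ⊢
        obtain ⟨w, hw, rfl⟩ := hz
        exact hP w hw) (by rw [Finset.card_image_of_injective _ sgI_injective])
    have : sgI y ∈ (Finset.univ.filter P).image sgI := by rw [himg]; simp [hy]
    simp only [Finset.mem_image, Finset.mem_filter, Finset.mem_univ, true_and] at this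
    obtain ⟨w, hw, e⟩ := this
    exact sgI_injective e ▸ hw
  have hall : ∀ (Q : I k → Prop), (∀ x, Q x → Q (sgI x)) → Q (.inl 0) → ∀ x, Q x := by
    intro Q hQ h0
    have up : ∀ (e : Fin (k + 1) → I k), (∀ i, i ≠ Fin.last k → sgI (e i) = e (i + 1)) → Q (e 0) → ∀ i, Q (e i) := by
      intro e he he0 i
      induction i using Fin.induction with
      | zero => exact he0
      | succ j ih =>
        have := hQ _ ih
        rwa [he _ (Fin.castSucc_lt_last j).ne, Fin.coeSucc_eq_succ] at this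
    have he := up Sum.inl (fun i hi => by simp [sgI, hi]) h0
    have hf := up Sum.inr (fun i hi => by simp [sgI, hi]) (by
      have := hQ _ (he (Fin.last k))
      simpa [sgI] using this)
    rintro (i | i)
    exacts [he i, hf i]
  by_contra hx
  refine hall (fun y => ¬ P y) (fun y hy e => hy (hback y e)) ?_ x₀ h
  intro h0
  exact hx (hall P hP h0 x)

variable (hF : SqField F q)
include hF

omit hF in
/-- The weights of a diagonal isometry. -/
def wt (q : ℕ) (t : Fin (k + 1) → F) (c : F) : J k r → F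
  | .inl (.inl i) => t i
  | .inl (.inr i) => (t i ^ q)⁻¹
  | .inr _ => c

variable (Φ : Frame F n q k r)

theorem exists_diag (t : Fin (k + 1) → F) (ht : ∀ i, t i ≠ 0) {c : F} (hc : c ^ (q + 1) = 1) :
    ∃ h : UG n F q, Mon Φ h id (wt q t c) ∧
      ((LinearEquiv.det h.1 : Fˣ) : F) = (∏ i, t i * (t i ^ q)⁻¹) * c ^ r := by
  obtain ⟨h, hh⟩ := exists_mon hF Φ id Function.injective_id (fun _ => rfl) (wt q t c) (by
    rintro ((i | i) | i) <;> simp only [wt, pr]
    · rw [inv_pow, hF.pow_pow, mul_inv_cancel₀ (ht i)]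
    · rw [inv_mul_cancel₀ (pow_ne_zero _ (ht i))]
    · rw [← pow_succ', hc])
  refine ⟨h, hh, ?_⟩
  rw [det_mon_id Φ hh, Fintype.prod_sum_type, Fintype.prod_sum_type, Finset.prod_mul_distrib]
  simp [wt]

theorem exists_coxeter : ∃ g ∈ SUG n F q, ∃ s : J k r → F, (∀ x, s x ≠ 0) ∧ Mon Φ g sg s := by
  obtain ⟨g₀, hg₀⟩ := exists_mon hF Φ sg sg_injective sg_pr (fun _ => 1) (fun _ => by simp)
  set δ := ((LinearEquiv.det g₀.1 : Fˣ) : F) with hδ
  have hδ1 : δ ^ (q + 1) = 1 := det_norm_one hF g₀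
  obtain ⟨x, hx0, hx⟩ : ∃ x : F, x ≠ 0 ∧ x ^ (q - 1) = δ := by
    obtain ⟨hfin, -⟩ := id hF
    have h1 : 1 < q := hF.one_lt
    have hle : (powMonoidHom (q - 1) : Fˣ →* Fˣ).range ≤ (powMonoidHom (q + 1) : Fˣ →* Fˣ).ker := by
      rintro _ ⟨y, rfl⟩
      rw [MonoidHom.mem_ker, powMonoidHom_apply, powMonoidHom_apply, ← pow_mul, ← hF.card_units]
      exact pow_card_eq_one'
    have heq := Subgroup.eq_of_le_of_card_ge hle (by
      rw [IsCyclic.card_powMonoidHom_range, IsCyclic.card_powMonoidHom_ker, hF.card_units,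
        Nat.gcd_eq_right (Dvd.intro_left _ rfl), Nat.gcd_eq_right (Dvd.intro _ rfl),
        Nat.mul_div_cancel_left _ (by omega)])
    have hm : LinearEquiv.det g₀.1 ∈ (powMonoidHom (q + 1) : Fˣ →* Fˣ).ker :=
      Units.ext (by rw [powMonoidHom_apply, Units.val_pow_eq_pow_val, ← hδ, hδ1, Units.val_one])
    rw [← heq] at hm
    obtain ⟨y, hy⟩ := hm
    exact ⟨(y : F), y.ne_zero, by simpa [hδ] using congrArg Units.val hy⟩
  let t : Fin (k + 1) → F := fun i => if i = 0 then x else 1
  have ht : ∀ i, t i ≠ 0 := fun i => by simp only [t]; split_ifs <;> simp [hx0]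
  obtain ⟨D, hD, hdet⟩ := exists_diag hF Φ t ht (c := 1) (one_pow _)
  refine ⟨g₀ * D, ?_, fun z => wt q t 1 z * 1, fun z => ?_, ?_⟩
  · rw [mem_SUG, Subgroup.coe_mul, map_mul]
    apply Units.ext
    rw [Units.val_mul, ← hδ, hdet, Finset.prod_eq_single 0]
    · simp only [t, if_pos rfl, one_pow, mul_one, Units.val_one]
      rw [← hx, show x ^ q = x ^ (q - 1) * x by rw [← pow_succ]; congr 1; have := hF.one_lt; omega]
      field_simp
    · intro i _ hi
      simp [t, hi]
    · simp
  · rcases z with (z | z) | z <;> simp [wt, ht]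
  · exact (Mon.mul Φ hg₀ hD)

theorem diag_pow {h : UG n F q} {w : J k r → F} (hh : Mon Φ h id w) : h ^ (q ^ 2) = h := by
  have hm : ∀ m x, (h ^ m).1 (Φ.b x) = w x ^ m • Φ.b x := by
    intro m
    induction m with
    | zero => intro x; simp
    | succ m ih =>
      intro x
      rw [pow_succ, Subgroup.coe_mul, LinearEquiv.mul_apply, hh, id, map_smul, ih, smul_smul, pow_succ']
  refine ext_frame Φ fun x => ?_
  rw [hm, hh, id, pow_two, pow_mul, hF.pow_pow]

theorem diag_conj {h : UG n F q} {w : J k r → F} (hh : Mon Φ h id w) {x : I k} {y : J k r} {c a : F}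
    (hc : UniCond q (Φ.b (.inl x)) (c • Φ.b y) a) :
    ∃ hc' : UniCond q (Φ.b (.inl x)) ((w (.inl x) ^ q * w y * c) • Φ.b y) (w (.inl x) * w (.inl x) ^ q * a),
      h * uni hF hc * h⁻¹ = uni hF hc' := by
  have hx : h.1 (Φ.b (.inl x)) = w (.inl x) • Φ.b (.inl x) := hh _
  have hv : h.1 (c • Φ.b y) = (c * w y) • Φ.b y := by rw [map_smul, hh, id, smul_smul]
  have h1 : UniCond q (w (.inl x) • Φ.b (.inl x)) ((c * w y) • Φ.b y) a := by
    rw [← hx, ← hv]
    exact ⟨by rw [UG_app]; exact hc.1, by rw [UG_app]; exact hc.2.1, by rw [UG_app]; exact hc.2.2⟩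
  have h2 : UniCond q (Φ.b (.inl x)) (w (.inl x) ^ q • (c * w y) • Φ.b y) (w (.inl x) * w (.inl x) ^ q * a) := by
    refine ⟨hc.1, ?_, ?_⟩
    · rw [herm_smul_left, ← herm_smul_right]; exact h1.2.1
    · rw [herm_smul_left (w (.inl x) ^ q), herm_smul_right (w (.inl x) ^ q), hF.pow_pow, mul_pow, mul_pow, hF.pow_pow]
      linear_combination w (.inl x) * w (.inl x) ^ q * h1.2.2
  have h3 : UniCond q (Φ.b (.inl x)) ((w (.inl x) ^ q * w y * c) • Φ.b y) (w (.inl x) * w (.inl x) ^ q * a) := by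
    rwa [show w (.inl x) ^ q * w y * c = w (.inl x) ^ q * (c * w y) by ring, ← smul_smul]
  refine ⟨h3, ?_⟩
  rw [uni_conj, uni_congr hF _ h1 hx hv rfl, uni_smul hF h1 h2]
  exact uni_congr hF _ _ rfl (by rw [smul_smul]; congr 1; ring) rfl

theorem diag_comm {h h' : UG n F q} {w w' : J k r → F} (hh : Mon Φ h id w) (hh' : Mon Φ h' id w') :
    h' * h = h * h' :=
  ext_frame Φ fun x => by
    simp only [Subgroup.coe_mul, LinearEquiv.mul_apply, hh x, hh' x, id, map_smul, smul_smul, mul_comm]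

/-- A conjugate of a diagonal element by a monomial one. -/
theorem conj_diag {h g : UG n F q} {w s : J k r → F} (hh : Mon Φ h id w) (hg : Mon Φ g sg s) (hs : ∀ x, s x ≠ 0) :
    ∃ w' : J k r → F, Mon Φ (g * h * g⁻¹) id w' ∧ ∀ x, w' (sg x) = w x := by
  classical
  let τ := Equiv.ofBijective (sg (k := k) (r := r)) ⟨sg_injective, Finite.injective_iff_surjective.1 sg_injective⟩
  refine ⟨fun x => w (τ.symm x), fun x => ?_, fun x => congrArg w (τ.symm_apply_apply x)⟩
  obtain ⟨z, rfl⟩ : ∃ z, sg z = x := ⟨τ.symm x, τ.apply_symm_apply x⟩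
  show (g * h * g⁻¹).1 (Φ.b (sg z)) = w (τ.symm (τ z)) • Φ.b (sg z)
  rw [τ.symm_apply_apply]
  have e : (g * h * g⁻¹ * g).1 (Φ.b z) = (g * h).1 (Φ.b z) := by rw [inv_mul_cancel_right]
  simp only [Subgroup.coe_mul, LinearEquiv.mul_apply, hg z, hh z, id, map_smul] at e ⊢
  rw [smul_comm] at e
  exact smul_right_injective _ (hs z) e

theorem exists_gen : ∃ ζ : F, ζ ≠ 0 ∧ orderOf ζ = (q - 1) * (q + 1) := by
  obtain ⟨hfin, -⟩ := id hF
  obtain ⟨z, hz⟩ := IsCyclic.exists_generator (α := Fˣ)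
  exact ⟨z, z.ne_zero, by rw [orderOf_units, orderOf_eq_card_of_forall_mem_zpowers hz, hF.card_units]⟩

theorem trv_pow {x : J k r} {d : F} (h : UniCond q (Φ.b x) 0 d) : uni hF h ^ (q ^ 2) = 1 := by
  have hp : ∀ m : ℕ, ∀ h' : UniCond q (Φ.b x) 0 ((m : F) * d), uni hF h ^ m = uni hF h' := by
    intro m
    induction m with
    | zero =>
      intro h'
      rw [pow_zero, ← uni_zero hF h.1]
      exact uni_congr hF _ _ rfl rfl (by simp)
    | succ m ih =>
      intro h'
      have hm : UniCond q (Φ.b x) 0 ((m : F) * d) := by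
        refine ⟨h.1, herm_zero_left _, ?_⟩
        have h2 := h'.2.2
        have h3 := h.2.2
        rw [herm_zero_left, add_zero] at h2 h3 ⊢
        push_cast at h2
        rw [add_mul, one_mul, hF.add_pow] at h2
        linear_combination h2 - h3
      rw [pow_succ, ih hm, uni_mul]
      exact uni_congr hF _ _ rfl (by simp) (by rw [hF.herm_zero_right]; push_cast; ring)
  have hq0 : ((q ^ 2 : ℕ) : F) = 0 := by
    obtain ⟨hfin, hcard⟩ := id hF
    have := Fintype.ofFinite F
    rw [← hcard, Nat.card_eq_fintype_card]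
    exact FiniteField.cast_card_eq_zero F
  rw [hp (q ^ 2) (by rw [hq0, zero_mul]; exact uniCond_zero hF h.1), ← uni_zero hF h.1]
  exact uni_congr hF _ _ rfl rfl (by rw [hq0, zero_mul])

omit hF in
theorem orderOf_inv' (x : F) : orderOf x⁻¹ = orderOf x := by
  rw [orderOf_eq_orderOf_iff]
  intro m
  rw [inv_pow, inv_eq_one]

theorem exists_skew_eq (a : F) (ha : a ^ q = -a) : ∃ c : F, c - c ^ q = a := by
  obtain ⟨d, hd, hdq⟩ := hF.exists_skew
  obtain ⟨x, hx⟩ := hF.exists_trace (c := a / d) (by rw [div_pow, ha, hdq, neg_div_neg_eq])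
  refine ⟨x * d, ?_⟩
  rw [mul_pow, hdq, show x * d - x ^ q * -d = (x + x ^ q) * d by ring, hx, div_mul_cancel₀ _ hd]

/-- Odd dimension: the generators. -/
theorem exists_pair_odd {k : ℕ} (Φ : Frame F n q k 1) (hk : k = 0 → q ≠ 2) :
    ∃ a b : UG n F q, a ∈ SUG n F q ∧ b ∈ SUG n F q ∧ TG n F q ≤ Subgroup.closure {a, b} := by
  classical
  obtain ⟨hfin, -⟩ := id hF
  have h1q := hF.one_lt
  obtain ⟨ζ, hζ0, hζ⟩ := exists_gen hF
  obtain ⟨g, hgS, s, hs, hg⟩ := exists_coxeter hF Φ
  set L := Fin.last k with hL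
  let t : Fin (k + 1) → F := if k = 0 then fun _ => ζ else fun i => if i = 0 then ζ⁻¹ else if i = L then ζ else 1
  let c : F := if k = 0 then ζ ^ (q - 1) else 1
  have ht : ∀ i, t i ≠ 0 := by
    intro i; simp only [t]; split_ifs with h1
    · exact hζ0
    · dsimp only; split_ifs <;> simp [hζ0]
  have hc : c ^ (q + 1) = 1 := by
    simp only [c]; split_ifs
    · rw [← pow_mul, ← hζ, pow_orderOf_eq_one]
    · exact one_pow _
  obtain ⟨h, hh, hdet⟩ := exists_diag hF Φ t ht hc
  have hhS : h ∈ SUG n F q := by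
    rw [mem_SUG]
    apply Units.ext
    rw [hdet, Units.val_one, pow_one]
    rcases Nat.eq_zero_or_pos k with rfl | hkpos
    · rw [show (∏ i, t i * (t i ^ q)⁻¹) = t 0 * (t 0 ^ q)⁻¹ from
        Finset.prod_eq_single_of_mem 0 (Finset.mem_univ _) (fun i _ hi => absurd (Fin.ext (by omega)) hi)]
      simp only [t, c, ↓reduceIte]
      rw [show ζ ^ q = ζ ^ (q - 1) * ζ by rw [← pow_succ]; congr 1; omega]
      field_simp
    · have hL0 : (0 : Fin (k + 1)) ≠ L := by simp [hL, Fin.ext_iff]; omega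
      simp only [t, c, if_neg hkpos.ne']
      rw [Finset.prod_eq_mul (0 : Fin (k + 1)) L hL0]
      · simp only [↓reduceIte, if_neg hL0.symm]
        field_simp
        rw [← mul_pow, one_div, inv_mul_cancel₀ hζ0, one_pow]
      · intro i _ hi
        simp [hi.1, hi.2]
      · simp
      · simp
  set e0 : I k := .inl 0
  set fL : I k := .inr L
  set w0 : J k 1 := .inr 0
  have sfL : sgI fL = e0 := by simp [fL, e0, sgI, hL]
  have sgw : sg w0 = w0 := rfl
  -- the root element
  have hbe : herm q (Φ.b (.inl e0)) (Φ.b (.inl e0)) = 0 := b_isotropic hF Φ e0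
  have hw0 : ∀ x : I k, herm q (Φ.b w0) (Φ.b (.inl x)) = 0 := fun x => by rw [Φ.gram]; simp [w0, pr]
  obtain ⟨a₀, ha₀⟩ := hF.exists_trace (c := -herm q (Φ.b w0) (Φ.b w0)) (by rw [hF.neg_pow, hF.herm_symm])
  have hu : UniCond q (Φ.b (.inl e0)) ((1 : F) • Φ.b w0) a₀ := by
    rw [one_smul]; exact ⟨hbe, hw0 e0, by rw [ha₀, neg_add_cancel]⟩
  set u := uni hF hu with hudef
  refine ⟨h, u * g, hhS, mul_mem (det_uni hF hu) hgS, ?_⟩
  set H := Subgroup.closure {h, u * g} with hH
  have hhH : h ∈ H := Subgroup.subset_closure (Set.mem_insert _ _)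
  have hbH : u * g ∈ H := Subgroup.subset_closure (Set.mem_insert_of_mem _ (Set.mem_singleton _))
  obtain ⟨w', hw', hww⟩ := conj_diag hF Φ hh hg hs
  set w : J k 1 → F := wt q t c with hwdef
  set χ := w (.inl e0) ^ q * w w0 with hχdef
  set χ' := w' (.inl e0) ^ q * w' w0 with hχ'def
  let Rel : F → UG n F q → Prop := fun d z =>
    ∃ (a : F) (hc : UniCond q (Φ.b (.inl e0)) (d • Φ.b w0) a), z = uni hF hc
  have ordpow : ∀ j : ℕ, j ≠ 0 → orderOf (ζ ^ j) = (q - 1) * (q + 1) / Nat.gcd ((q - 1) * (q + 1)) j := fun j hj => by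
    rw [orderOf_pow' _ hj, hζ]
  have hord : q ≤ orderOf χ ∧ χ' ≠ 1 := by
    have hw'0 : w' (.inl e0) = w (.inl fL) := by rw [← hww (.inl fL)]; simp only [sg, Sum.map_inl, sfL]
    have hw'w : w' w0 = w w0 := hww w0
    rcases Nat.eq_zero_or_pos k with rfl | hkpos
    · have hq2 := hk rfl
      have eχ : χ = ζ ^ (2 * q - 1) := by
        simp only [hχdef, hwdef, e0, w0, wt, t, c, ↓reduceIte]
        rw [← pow_add]; congr 1; omega
      have eχ' : χ' * ζ = ζ ^ (q - 1) := by
        rw [hχ'def, hw'0, hw'w]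
        simp only [hwdef, fL, w0, wt, t, c, ↓reduceIte]
        rw [inv_pow, hF.pow_pow]
        field_simp
      constructor
      · rw [eχ, ordpow _ (by omega)]
        have hg3 : Nat.gcd ((q - 1) * (q + 1)) (2 * q - 1) ∣ 3 := by
          obtain ⟨j, hj⟩ : ∃ j, q = j + 2 := ⟨q - 2, by omega⟩
          subst hj
          set G := Nat.gcd ((j + 2 - 1) * (j + 2 + 1)) (2 * (j + 2) - 1)
          have d1 : G ∣ (j + 1) * (j + 3) := by
            have : G ∣ (j + 2 - 1) * (j + 2 + 1) := Nat.gcd_dvd_left _ _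
            rwa [show j + 2 - 1 = j + 1 by omega] at this
          have d2 : G ∣ 2 * j + 3 := by
            have : G ∣ 2 * (j + 2) - 1 := Nat.gcd_dvd_right _ _
            rwa [show 2 * (j + 2) - 1 = 2 * j + 3 by omega] at this
          have d3 : G ∣ (2 * j + 3) * (2 * j + 5) := dvd_mul_of_dvd_left d2 _
          have e : (2 * j + 3) * (2 * j + 5) = 4 * ((j + 1) * (j + 3)) + 3 := by ring
          rw [e] at d3
          exact (Nat.dvd_add_right (dvd_mul_of_dvd_right d1 _)).1 d3
        rcases (Nat.dvd_prime Nat.prime_three).1 hg3 with e | e <;> rw [e]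
        · rw [Nat.div_one]
          have : q + 1 ≤ (q - 1) * (q + 1) := Nat.le_mul_of_pos_left _ (by omega)
          omega
        · rw [Nat.le_div_iff_mul_le (by norm_num)]
          rcases Nat.lt_or_ge q 4 with h4 | h4
          · obtain rfl : q = 3 := by omega
            norm_num at e
          · have : 3 * (q + 1) ≤ (q - 1) * (q + 1) := Nat.mul_le_mul_right _ (by omega)
            omega
      · intro e
        rw [e, one_mul] at eχ'
        have h2 : ζ ^ 1 = ζ ^ (q - 1) := by rw [pow_one]; exact eχ'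
        have hmul : 3 * 1 ≤ (q - 1) * (q + 1) := by
          have : q + 1 ≤ (q - 1) * (q + 1) := Nat.le_mul_of_pos_left _ (by omega)
          omega
        have hlt : q - 1 < (q - 1) * (q + 1) := by
          have : (q - 1) * 2 ≤ (q - 1) * (q + 1) := Nat.mul_le_mul_left _ (by omega)
          omega
        have := pow_injOn_Iio_orderOf (Set.mem_Iio.2 (by rw [hζ]; omega)) (Set.mem_Iio.2 (by rw [hζ]; exact hlt)) h2
        omega
    · have hL0 : (0 : Fin (k + 1)) ≠ L := by simp [hL, Fin.ext_iff]; omega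
      have eχ : χ = (ζ ^ q)⁻¹ := by
        simp only [hχdef, hwdef, e0, w0, wt, t, c, if_neg hkpos.ne', ↓reduceIte, inv_pow, mul_one]
      have eχ' : χ' = ζ⁻¹ := by
        rw [hχ'def, hw'0, hw'w]
        simp only [hwdef, fL, w0, wt, t, c, if_neg hkpos.ne', if_neg hL0.symm, ↓reduceIte, mul_one]
        rw [inv_pow, hF.pow_pow]
      have hN : q + 1 ≤ (q - 1) * (q + 1) := Nat.le_mul_of_pos_left _ (by omega)
      constructor
      · rw [eχ, orderOf_inv', ordpow _ (by omega), Nat.Coprime.gcd_eq_one, Nat.div_one]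
        · omega
        · refine Nat.Coprime.mul_left ?_ ?_
          · rw [Nat.coprime_comm]
            obtain ⟨j, rfl⟩ : ∃ j, q = j + 1 := ⟨q - 1, by omega⟩
            simp
          · simp
      · intro e
        rw [eχ', inv_eq_one] at e
        rw [e, orderOf_one] at hζ
        omega
  have hnew : ∀ z, ∀ d a : F, ∀ hc : UniCond q (Φ.b (.inl e0)) (d • Φ.b w0) a, z = uni hF hc → Rel d z :=
    fun z d a hc e => ⟨a, hc, e⟩
  have hall := family_all hF H Rel
    (hnew _ 0 0 (by rw [zero_smul]; exact uniCond_zero hF hbe)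
      (by rw [← uni_zero hF hbe]; exact uni_congr hF _ _ rfl (by rw [zero_smul]) rfl))
    (by
      rintro d d' _ _ ⟨a, hc, rfl⟩ ⟨a', hc', rfl⟩
      exact ⟨_, by rw [add_smul]; exact uniCond_mul hF hc hc',
        by rw [uni_mul]; exact uni_congr hF _ _ rfl (by rw [add_smul]) rfl⟩)
    (by
      rintro d _ ⟨a, hc, rfl⟩
      have hc' : UniCond q (Φ.b (.inl e0)) ((-d) • Φ.b w0) (a ^ q) := by
        refine ⟨hbe, by rw [neg_smul, herm_neg_left, hc.2.1, neg_zero], ?_⟩
        rw [neg_smul, hF.pow_pow, herm_neg_left, hF.herm_neg_right, neg_neg]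
        linear_combination hc.2.2
      refine ⟨_, hc', inv_eq_of_mul_eq_one_right ?_⟩
      rw [uni_mul, ← uni_zero hF hbe]
      exact uni_congr hF _ _ rfl (by rw [neg_smul, add_neg_cancel])
        (by rw [neg_smul, herm_neg_left]; linear_combination hc.2.2))
    (h := h) (h' := g * h * g⁻¹) (u := u) (χ := χ) (χ' := χ') (c := 1)
    (by
      rintro d _ ⟨a, hc, rfl⟩
      obtain ⟨hc', e⟩ := diag_conj hF Φ hh hc
      exact ⟨_, hc', e⟩)
    (by
      rintro d _ ⟨a, hc, rfl⟩
      obtain ⟨hc', e⟩ := diag_conj hF Φ hw' hc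
      exact ⟨_, hc', e⟩)
    (diag_comm hF Φ hh hw') hhH
    (by
      have := mul_mem (mul_mem hbH hhH) (inv_mem hbH)
      rwa [show u * g * h * (u * g)⁻¹ = u * (g * h * g⁻¹) * u⁻¹ by group] at this)
    ⟨a₀, hu, rfl⟩ one_ne_zero
    (by intro e; rw [e, orderOf_zero] at hord; omega)
    (by intro e; rw [e, orderOf_one] at hord; omega) hord.2 hord.1
  have hgH : g ∈ H := by
    obtain ⟨z, hz, a, hc1, rfl⟩ := hall 1
    have hT : ∃ hd : UniCond q (Φ.b (.inl e0)) 0 (a₀ - a), uni hF hd ∈ H := by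
      obtain ⟨c₁, hc₁⟩ := exists_skew_eq hF (a₀ - a) (by
        have h2 := hu.2.2
        have h3 := hc1.2.2
        rw [hF.sub_pow]
        linear_combination h2 - h3)
      obtain ⟨z1, hz1, a1, hd1, rfl⟩ := hall c₁
      obtain ⟨hd, hm⟩ := comm_same (hF := hF) (Φ := Φ) (H := H) (x := .inl e0) ⟨a1, hd1, hz1⟩ ⟨a, hc1, hz⟩
      have e : herm q (c₁ • Φ.b w0) ((1 : F) • Φ.b w0) - herm q ((1 : F) • Φ.b w0) (c₁ • Φ.b w0) = a₀ - a := by
        rw [herm_smul_left, herm_smul_right, herm_smul_left, herm_smul_right, Φ.gram, if_pos (show w0 = pr w0 from rfl),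
          one_pow, ← hc₁]
        ring
      exact ⟨e ▸ hd, by convert hm using 1; exact uni_congr hF _ _ rfl rfl e.symm⟩
    obtain ⟨hd, hm⟩ := hT
    have huH : u ∈ H := by
      have := mul_mem hm hz
      rw [uni_mul] at this
      convert this using 1
      exact uni_congr hF _ _ rfl (zero_add _).symm (by rw [hF.herm_zero_right]; ring)
    have := mul_mem (inv_mem huH) hbH
    rwa [inv_mul_cancel_left] at this
  have hS0 : ∀ x : I k, ∀ d : F, Sv hF Φ H (.inl x) (d • Φ.b w0) := by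
    refine all_of_one (fun x => ∀ d : F, Sv hF Φ H (.inl x) (d • Φ.b w0)) (fun x hx d => ?_) (x₀ := e0) fun d => ?_
    · have := Sv.map hgH (hg (.inl x)) (hx (d / (s (.inl x) ^ q * s w0)))
      rw [map_smul, hg w0, smul_smul, smul_smul] at this
      have := hs (.inl x)
      have := hs w0
      convert ‹Sv hF Φ H _ _› using 2
      all_goals first | rfl | (rw [sgw]; congr 1; field_simp) | field_simp
    · obtain ⟨z, hz, a, hc1, rfl⟩ := hall d
      exact ⟨a, hc1, hz⟩
  have hT : ∀ x : I k, TF hF Φ H (.inl x) := by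
    intro x a ha
    have hsk : a ^ q = -a := by
      have := ha.2.2
      rw [herm_zero_left, add_zero] at this
      linear_combination this
    obtain ⟨c₁, hc₁⟩ := exists_skew_eq hF a hsk
    obtain ⟨hd, hm⟩ := comm_same (hS0 x c₁) (hS0 x 1)
    convert hm using 1
    refine uni_congr hF _ _ rfl rfl ?_
    rw [herm_smul_left, herm_smul_right, herm_smul_left, herm_smul_right, Φ.gram, if_pos (show w0 = pr w0 from rfl),
      one_pow, ← hc₁]
    ring
  refine TG_le_of_roots le_rfl hT fun x y hy hy' d => ?_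
  rcases y with y | y
  · have hxy : pl x ≠ pl y := by
      intro e
      rcases x with i | i <;> rcases y with j | j <;> simp [pl] at e <;> subst e <;> simp [pr] at hy hy'
    obtain ⟨n1, n2⟩ := pl_ne (r := 1) hxy
    obtain ⟨a, hA, hAm⟩ := hS0 y ((-d) ^ q)
    have hxx : (uni hF hA).1 (Φ.b (.inl x)) = Φ.b (.inl x) := by
      rw [uni_apply, Φ.gram, if_neg n2, herm_smul_right, Φ.gram, if_neg (by simp [w0, pr_inl])]
      simp
    have := Sv.move hAm hxx (hS0 x 1)
    convert this using 1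
    rw [one_smul, uni_apply, hw0 y, herm_smul_right, Φ.gram, if_pos (show w0 = pr w0 from rfl), hF.pow_pow]
    simp
  · rw [show (Sum.inr y : J k 1) = w0 from congrArg Sum.inr (Subsingleton.elim _ _)]
    exact hS0 x d

/-- Even dimension: the generators. -/
theorem exists_pair_even {k : ℕ} (Φ : Frame F n q k 0) (hk : 1 ≤ k) :
    ∃ a b : UG n F q, a ∈ SUG n F q ∧ b ∈ SUG n F q ∧ TG n F q ≤ Subgroup.closure {a, b} := by
  classical
  obtain ⟨hfin, -⟩ := id hF
  have h1q := hF.one_lt
  obtain ⟨ζ, hζ0, hζ⟩ := exists_gen hF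
  obtain ⟨g, hgS, s, hs, hg⟩ := exists_coxeter hF Φ
  set L := Fin.last k with hL
  have h01 : (0 : Fin (k + 1)) ≠ 1 := by
    obtain ⟨j, rfl⟩ : ∃ j, k = j + 1 := ⟨k - 1, by omega⟩
    simp [Fin.ext_iff]
  have hL0 : L ≠ 0 := by simp [hL, Fin.ext_iff]; omega
  let t : Fin (k + 1) → F := fun i => if i = 0 then ζ⁻¹ else if i = 1 then ζ else 1
  have ht : ∀ i, t i ≠ 0 := by intro i; simp only [t]; split_ifs <;> simp [hζ0]
  obtain ⟨h, hh, hdet⟩ := exists_diag hF Φ t ht (c := 1) (one_pow _)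
  have hhS : h ∈ SUG n F q := by
    rw [mem_SUG]
    apply Units.ext
    rw [hdet, Units.val_one, pow_zero, mul_one, Finset.prod_eq_mul (0 : Fin (k + 1)) 1 h01]
    · simp only [t, ↓reduceIte, if_neg h01.symm]
      field_simp
      rw [← mul_pow, one_div, inv_mul_cancel₀ hζ0, one_pow]
    · intro i _ hi
      simp [t, hi.1, hi.2]
    · simp
    · simp
  set e0 : I k := .inl 0
  set e1 : I k := .inl 1
  set f1 : I k := .inr 1
  set fL : I k := .inr L
  have sfL : sgI fL = e0 := by simp [fL, e0, sgI, hL]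
  have se0 : sgI e0 = e1 := by simp [e0, e1, sgI, ← hL, hL0.symm]
  have pe0 : pl e0 = 0 := rfl
  have hbe : herm q (Φ.b (.inl e0)) (Φ.b (.inl e0)) = 0 := b_isotropic hF Φ e0
  have h10 : herm q (Φ.b (.inl e1)) (Φ.b (.inl e0)) = 0 := by rw [Φ.gram, if_neg]; simp [e0, e1, pr]
  have h11 : herm q (Φ.b (.inl e1)) (Φ.b (.inl e1)) = 0 := b_isotropic hF Φ e1
  have hc0 : ∀ d : F, UniCond q (Φ.b (.inl e0)) (d • Φ.b (.inl e1)) 0 := fun d =>
    ⟨hbe, by rw [herm_smul_left, h10, mul_zero],
      by rw [zero_pow hF.q_ne_zero, herm_smul_left, herm_smul_right, h11]; ring⟩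
  set X : F → UG n F q := fun d => uni hF (hc0 d) with hX
  have hX0 : X 0 = 1 := by
    rw [hX, ← uni_zero hF hbe]; exact uni_congr hF _ _ rfl (zero_smul _ _) rfl
  have hXmul : ∀ d d', X d * X d' = X (d + d') := fun d d' => by
    simp only [hX]
    rw [uni_mul]
    exact uni_congr hF _ _ rfl (by rw [add_smul]) (by rw [herm_smul_left, herm_smul_right, h11]; ring)
  have hXinv : ∀ d, (X d)⁻¹ = X (-d) := fun d =>
    inv_eq_of_mul_eq_one_right (by rw [hXmul, add_neg_cancel, hX0])
  obtain ⟨sk, hsk0, hsk⟩ := hF.exists_skew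
  -- the extra long root element
  obtain ⟨y, hyS, hcom, hypow, hTy⟩ : ∃ y ∈ SUG n F q, Commute h y ∧ y ^ (q ^ 2) = 1 ∧
      ∀ H : Subgroup (UG n F q), g ∈ H → (∀ d, X d ∈ H) → y ∈ H →
        ∃ (z : I k) (d : F) (hd : UniCond q (Φ.b (.inl z)) 0 d), d ≠ 0 ∧ uni hF hd ∈ H := by
    rcases eq_or_lt_of_le hk with rfl | hk2
    · refine ⟨1, one_mem _, Commute.one_right _, one_pow _, fun H hgH hX' _ => ?_⟩
      -- `e₀ + e₁` and its images give `e₀ - e₁`
      have hg3 : sgI (sgI (sgI e0)) = f1 ∧ sgI (sgI (sgI e1)) = e0 := by constructor <;> decide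
      have hf1e0 : herm q (Φ.b (.inl e0)) (Φ.b (.inl f1)) = 0 := by rw [Φ.gram, if_neg]; simp [e0, f1, pr]
      have hf11 : herm q (Φ.b (.inl f1)) (Φ.b (.inl e1)) = 1 := by rw [Φ.gram, if_pos (by rfl)]
      -- exact root element at `f₁`
      have hY : ∀ d : F, ∃ hcd : UniCond q (Φ.b (.inl f1)) (d • Φ.b (.inl e0)) 0, uni hF hcd ∈ H := by
        intro d
        have step : ∀ (x y : I 1), (∀ d : F, ∃ hcd : UniCond q (Φ.b (.inl x)) (d • Φ.b (.inl y)) 0, uni hF hcd ∈ H) →
            ∀ d : F, ∃ hcd : UniCond q (Φ.b (.inl (sgI x))) (d • Φ.b (.inl (sgI y))) 0, uni hF hcd ∈ H := by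
          intro x y hxy d
          obtain ⟨hcd, hm⟩ := hxy (d / (s (.inl x) ^ q * s (.inl y)))
          obtain ⟨h', hm'⟩ := conj_mem hgH (hg (.inl x)) hcd hm
          have hv : s (.inl x) ^ q • g.1 ((d / (s (.inl x) ^ q * s (.inl y))) • Φ.b (.inl y)) =
              d • Φ.b (.inl (sgI y)) := by
            rw [map_smul, hg (.inl y), smul_smul, smul_smul]
            show _ • Φ.b (Sum.inl (sgI y)) = _
            congr 1
            have := hs (.inl x)
            have := hs (.inl y)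
            field_simp
          have h'' : UniCond q (Φ.b (.inl (sgI x))) (d • Φ.b (.inl (sgI y))) 0 := by
            rw [← hv, ← mul_zero (s (.inl x) * s (.inl x) ^ q)]; exact h'
          exact ⟨h'', by convert hm' using 1; exact uni_congr hF _ _ rfl hv.symm (by simp)⟩
        have := step _ _ (step _ _ (step e0 e1 fun d => ⟨hc0 d, hX' d⟩)) d
        rwa [hg3.1, hg3.2] at this
      obtain ⟨hcd, hm⟩ := hY 1
      obtain ⟨x₁, hx₁⟩ := exists_skew_eq hF sk hsk
      have he1f : herm q (Φ.b (.inl e1)) (Φ.b (.inl f1)) = 1 := by rw [← hF.herm_symm, hf11, one_pow]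
      have he0f : (uni hF hcd).1 (Φ.b (.inl e0)) = Φ.b (.inl e0) := by
        rw [uni_apply, hf1e0, one_smul, hbe]
        simp
      have hv : (uni hF hcd).1 (x₁ • Φ.b (.inl e1)) - x₁ • Φ.b (.inl e1) = x₁ • Φ.b (.inl e0) := by
        rw [uni_apply, one_smul, herm_smul_left, herm_smul_left, h10, he1f]
        module
      obtain ⟨h', hm'⟩ := comm_move hm he0f (hc0 x₁) (hX' x₁)
      have ea : herm q (x₁ • Φ.b (.inl e1)) ((uni hF hcd).1 (x₁ • Φ.b (.inl e1)) - x₁ • Φ.b (.inl e1)) = 0 := by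
        rw [hv, herm_smul_left, herm_smul_right, h10]; ring
      have h'' : UniCond q (Φ.b (.inl e0)) (x₁ • Φ.b (.inl e0)) 0 := ⟨hbe, by rw [herm_smul_left, hbe, mul_zero],
        by rw [zero_pow hF.q_ne_zero, herm_smul_left, herm_smul_right, hbe]; ring⟩
      have hd : UniCond q (Φ.b (.inl e0)) 0 sk :=
        ⟨hbe, herm_zero_left _, by rw [hsk, herm_zero_left]; ring⟩
      refine ⟨e0, sk, hd, hsk0, ?_⟩
      have e : uni hF h'' = uni hF hd := Subtype.ext (LinearEquiv.ext fun z => by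
        rw [uni_apply, uni_apply, herm_smul_right, hF.herm_zero_right, ← hx₁]
        module)
      rw [← e]
      convert hm' using 1
      exact uni_congr hF _ _ rfl hv.symm ea.symm
    · let p2 : Fin (k + 1) := ⟨2, by omega⟩
      have n20 : p2 ≠ 0 := by simp [p2, Fin.ext_iff]
      have n21 : p2 ≠ 1 := by
        obtain ⟨j, rfl⟩ : ∃ j, k = j + 1 := ⟨k - 1, by omega⟩
        simp [p2, Fin.ext_iff]
      have hd : UniCond q (Φ.b (.inl (.inl p2))) 0 sk :=
        ⟨b_isotropic hF Φ _, herm_zero_left _, by rw [hsk, herm_zero_left]; ring⟩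
      refine ⟨uni hF hd, det_uni hF hd, ?_, trv_pow hF Φ hd, fun H _ _ hy => ⟨_, sk, hd, hsk0, hy⟩⟩
      have e : h * uni hF hd * h⁻¹ = uni hF hd := by
        rw [uni_conj]
        refine uni_congr hF _ _ ?_ (map_zero _) rfl
        rw [hh]
        simp [wt, t, n20, n21]
      show h * uni hF hd = uni hF hd * h
      rw [← mul_inv_eq_iff_eq_mul]; exact e
  refine ⟨h * y, X 1 * g, mul_mem hhS hyS, mul_mem (det_uni hF _) hgS, ?_⟩
  set H := Subgroup.closure {h * y, X 1 * g} with hH
  have haH : h * y ∈ H := Subgroup.subset_closure (Set.mem_insert _ _)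
  have hbH : X 1 * g ∈ H := Subgroup.subset_closure (Set.mem_insert_of_mem _ (Set.mem_singleton _))
  have hhH : h ∈ H := by
    have := pow_mem haH (q ^ 2)
    rwa [hcom.mul_pow, hypow, diag_pow hF Φ hh, mul_one] at this
  have hyH : y ∈ H := by
    have := mul_mem (inv_mem hhH) haH
    rwa [inv_mul_cancel_left] at this
  obtain ⟨w', hw', hww⟩ := conj_diag hF Φ hh hg hs
  set w : J k 0 → F := wt q t 1 with hwdef
  set χ := w (.inl e0) ^ q * w (.inl e1) with hχdef
  set χ' := w' (.inl e0) ^ q * w' (.inl e1) with hχ'def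
  have hN : q + 1 ≤ (q - 1) * (q + 1) := Nat.le_mul_of_pos_left _ (by omega)
  have hord : q ≤ orderOf χ ∧ χ' ≠ 1 := by
    have hw0 : w' (.inl e0) = w (.inl fL) := by rw [← hww (.inl fL)]; simp only [sg, Sum.map_inl, sfL]
    have hw1 : w' (.inl e1) = w (.inl e0) := by rw [← hww (.inl e0)]; simp only [sg, Sum.map_inl, se0]
    constructor
    · have eχ : χ = (ζ ^ (q - 1))⁻¹ := by
        simp only [hχdef, hwdef, e0, e1, wt, t, ↓reduceIte, if_neg h01.symm]
        rw [inv_pow, show ζ ^ q = ζ ^ (q - 1) * ζ by rw [← pow_succ]; congr 1; omega]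
        field_simp
      rw [eχ, orderOf_inv', orderOf_pow' _ (by omega), hζ, Nat.gcd_eq_right (Dvd.intro _ rfl),
        Nat.mul_div_cancel_left _ (by omega)]
      omega
    · intro e
      rw [hχ'def, hw0, hw1] at e
      simp only [hwdef, fL, e0, wt, t, ↓reduceIte, if_neg hL0] at e
      rcases eq_or_ne L 1 with hL1 | hL1
      · rw [if_pos hL1, inv_pow, hF.pow_pow, ← mul_inv, inv_eq_one, ← pow_two] at e
        have := orderOf_dvd_of_pow_eq_one e
        rw [hζ] at this
        have := Nat.le_of_dvd two_pos this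
        omega
      · rw [if_neg hL1, one_pow, inv_one, one_pow, one_mul, inv_eq_one] at e
        rw [e, orderOf_one] at hζ
        omega
  let Rel : F → UG n F q → Prop := fun d z => z = X d
  have hall := family_all hF H Rel hX0.symm
    (by rintro d d' _ _ rfl rfl; exact hXmul d d')
    (by rintro d _ rfl; exact hXinv d)
    (h := h) (h' := g * h * g⁻¹) (u := X 1) (χ := χ) (χ' := χ') (c := 1)
    (by
      rintro d _ rfl
      obtain ⟨hc', e⟩ := diag_conj hF Φ hh (hc0 d)
      exact e.trans (uni_congr hF _ _ rfl rfl (by simp)))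
    (by
      rintro d _ rfl
      obtain ⟨hc', e⟩ := diag_conj hF Φ hw' (hc0 d)
      exact e.trans (uni_congr hF _ _ rfl rfl (by simp)))
    (diag_comm hF Φ hh hw') hhH
    (by
      have := mul_mem (mul_mem hbH hhH) (inv_mem hbH)
      rwa [show X 1 * g * h * (X 1 * g)⁻¹ = X 1 * (g * h * g⁻¹) * (X 1)⁻¹ by group] at this)
    rfl one_ne_zero
    (by intro e; rw [e, orderOf_zero] at hord; omega)
    (by intro e; rw [e, orderOf_one] at hord; omega) hord.2 hord.1
  have hXH : ∀ d, X d ∈ H := fun d => by obtain ⟨z, hz, rfl⟩ := hall d; exact hz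
  have hgH : g ∈ H := by
    have := mul_mem (inv_mem (hXH 1)) hbH
    rwa [inv_mul_cancel_left] at this
  -- a long root element at `f₁`
  have hTz : ∃ (d : F) (hd : UniCond q (Φ.b (.inl f1)) 0 d), d ≠ 0 ∧ uni hF hd ∈ H := by
    obtain ⟨z, d, hd, hd0, hm⟩ := hTy H hgH hXH hyH
    refine all_of_one (fun z => ∃ (d : F) (hd : UniCond q (Φ.b (.inl z)) 0 d), d ≠ 0 ∧ uni hF hd ∈ H)
      (fun x => ?_) (x₀ := z) ⟨d, hd, hd0, hm⟩ f1
    rintro ⟨d, hd, hd0, hm⟩
    obtain ⟨h', hm'⟩ := conj_mem hgH (hg (.inl x)) hd hm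
    have h'' : UniCond q (Φ.b (.inl (sgI x))) 0 (s (.inl x) * s (.inl x) ^ q * d) := by
      have := h'
      rw [map_zero, smul_zero] at this
      exact this
    exact ⟨_, h'', mul_ne_zero (mul_ne_zero (hs _) (pow_ne_zero _ (hs _))) hd0,
      by convert hm' using 1; exact uni_congr hF _ _ rfl (by simp) rfl⟩
  obtain ⟨d, hd, hd0, hTm⟩ := hTz
  have hdq : d ^ q = -d := by
    have := hd.2.2
    rw [herm_zero_left, add_zero] at this
    linear_combination this
  have hf1e0 : herm q (Φ.b (.inl e0)) (Φ.b (.inl f1)) = 0 := by rw [Φ.gram, if_neg]; simp [e0, f1, pr, h01.symm]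
  have he1f1 : herm q (Φ.b (.inl e1)) (Φ.b (.inl f1)) = 1 := by rw [Φ.gram, if_pos (by rfl)]
  have he0f : (uni hF hd).1 (Φ.b (.inl e0)) = Φ.b (.inl e0) := by
    rw [uni_apply, hf1e0, hF.herm_zero_right]; simp
  have hP : ∀ c : F, ∃ h' : UniCond q (Φ.b (.inl e0)) ((c * d) • Φ.b (.inl f1)) (-(d * (c * c ^ q))),
      uni hF h' ∈ H := by
    intro c
    obtain ⟨h', hm'⟩ := comm_move hTm he0f (hc0 c) (hXH c)
    have e : (uni hF hd).1 (c • Φ.b (.inl e1)) - c • Φ.b (.inl e1) = (c * d) • Φ.b (.inl f1) := by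
      rw [uni_apply, herm_smul_left, he1f1, hF.herm_zero_right]
      module
    have ea : herm q (c • Φ.b (.inl e1)) ((uni hF hd).1 (c • Φ.b (.inl e1)) - c • Φ.b (.inl e1)) = -(d * (c * c ^ q)) := by
      rw [e, herm_smul_left, herm_smul_right, he1f1, mul_pow, hdq]; ring
    refine ⟨by rw [← e, ← ea]; exact h', ?_⟩
    convert hm' using 1
    exact uni_congr hF _ _ rfl e.symm ea.symm
  have hff : herm q (Φ.b (.inl f1)) (Φ.b (.inl f1)) = 0 := b_isotropic hF Φ f1
  have hTe0 : TF hF Φ H (.inl e0) := by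
    intro a ha
    have hsa : a ^ q = -a := by
      have := ha.2.2
      rw [herm_zero_left, add_zero] at this
      linear_combination this
    obtain ⟨c, hc⟩ := hF.exists_trace (c := a / d) (by rw [div_pow, hsa, hdq, neg_div_neg_eq])
    obtain ⟨p1, m1⟩ := hP c
    obtain ⟨p2, m2⟩ := hP 1
    obtain ⟨p3, m3⟩ := hP (c + 1)
    have e : uni hF ha * uni hF p3 = uni hF p1 * uni hF p2 := by
      rw [uni_mul, uni_mul]
      refine uni_congr hF _ _ rfl (by rw [zero_add, ← add_smul]; congr 1; ring) ?_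
      rw [hF.herm_zero_right, herm_smul_left, herm_smul_right, hff, hF.add_pow, one_pow]
      have : a = d * (c + c ^ q) := by rw [hc, mul_div_cancel₀ _ hd0]
      rw [this]; ring
    have := mul_mem (mul_mem m1 m2) (inv_mem m3)
    rwa [← e, mul_inv_cancel_right] at this
  have hT : ∀ x : I k, TF hF Φ H (.inl x) :=
    all_of_one (fun x => TF hF Φ H (.inl x)) (fun x hx => TF.map hgH (hs (.inl x)) (hg (.inl x)) hx) hTe0
  -- short roots by distance of planes
  let P : Fin (k + 1) → Prop := fun δ =>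
    ∀ x y : I k, pl y = pl x + δ → ∀ c : F, Sv hF Φ H (.inl x) (c • Φ.b (.inl y))
  have hP1 : P 1 := by
    refine all_of_one (fun x => ∀ y : I k, pl y = pl x + 1 → ∀ c : F, Sv hF Φ H (.inl x) (c • Φ.b (.inl y)))
      (fun x hx y hy c => ?_) (x₀ := e0) fun y hy c => ?_
    · obtain ⟨y', rfl⟩ := sgI_surjective y
      rw [pl_sgI, pl_sgI] at hy
      have := Sv.map hgH (hg (.inl x)) (hx y' (add_right_cancel hy) (c / (s (.inl x) ^ q * s (.inl y'))))
      rw [map_smul, hg (.inl y'), smul_smul, smul_smul] at this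
      have := hs (.inl x)
      have := hs (.inl y')
      convert ‹Sv hF Φ H _ _› using 2
      all_goals first | rfl | (congr 1; field_simp) | field_simp
    · rw [pe0, zero_add] at hy
      rcases y with j | j <;> simp [pl] at hy <;> subst hy
      · exact ⟨0, hc0 c, hXH c⟩
      · obtain ⟨h', hm'⟩ := hP (c / d)
        rw [div_mul_cancel₀ _ hd0] at h'
        refine ⟨_, h', ?_⟩
        convert hm' using 1
        exact uni_congr hF _ _ rfl (by rw [div_mul_cancel₀ _ hd0]) rfl
  have hstep : ∀ δ : Fin (k + 1), δ ≠ 0 → δ + 1 ≠ 0 → P δ → P (δ + 1) := by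
    intro δ hδ hδ1 hδP x z hz c
    obtain ⟨z', hz'⟩ := sgI_surjective z
    set y : I k := z'.swap with hy
    have hpy : pl y = pl x + δ := by
      rw [hy, pl_swap]
      have : pl z' + 1 = pl x + (δ + 1) := by rw [← pl_sgI, hz', hz]
      rw [← add_assoc] at this
      exact add_right_cancel this
    have hpz : pl z' = pl x + δ := by rw [← pl_swap z', ← hy]; exact hpy
    have hy' : y.swap = z' := by rw [hy, Sum.swap_swap]
    obtain ⟨a, hA, hAm⟩ := hP1 z' z (by rw [← hz', pl_sgI]) 1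
    have nxy : pl x ≠ pl y := by rw [hpy]; exact fun e => hδ (add_left_cancel (e.symm.trans (add_zero _).symm))
    have nxz : pl x ≠ pl z := by rw [hz]; exact fun e => hδ1 (add_left_cancel (e.symm.trans (add_zero _).symm))
    have nxz' : pl x ≠ pl z' := by rwa [hpz, ← hpy]
    have hxx : (uni hF hA).1 (Φ.b (.inl x)) = Φ.b (.inl x) := by
      rw [uni_apply, Φ.gram, if_neg (pl_ne nxz').2, one_smul, Φ.gram, if_neg (pl_ne nxz).2]
      simp
    have nyz : pl y ≠ pl z := by
      rw [hy, pl_swap, ← hz', pl_sgI]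
      intro e
      exact h01 (add_left_cancel ((add_zero _).trans e)).symm.symm
    have := Sv.move hAm hxx (hδP x y hpy c)
    have e1 : (uni hF hA).1 (c • Φ.b (.inl y)) - c • Φ.b (.inl y) = c • Φ.b (.inl z) + (c * a) • Φ.b (.inl z') := by
      rw [uni_apply, herm_smul_left, herm_smul_left, one_smul, Φ.gram, if_pos (by rw [pr_inl, hy']),
        Φ.gram, if_neg (pl_ne nyz).2]
      module
    rw [e1] at this
    have h2 := Sv.add this (hδP x z' hpz (-(c * a)))
    rwa [neg_smul, add_neg_cancel_right] at h2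
  have hPall : ∀ δ : Fin (k + 1), δ ≠ 0 → P δ := by
    intro δ
    induction δ using Fin.induction with
    | zero => exact fun h => absurd rfl h
    | succ j ih =>
      intro hj
      rw [← Fin.coeSucc_eq_succ]
      rcases eq_or_ne j.castSucc 0 with e | e
      · rw [e, zero_add]; exact hP1
      · exact hstep _ e (by rw [Fin.coeSucc_eq_succ]; exact Fin.succ_ne_zero j) (ih e)
  refine TG_le_of_roots (by omega) hT fun x y hy hy' c => ?_
  rcases y with y | y
  · have hxy : pl x ≠ pl y := by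
      intro e
      rcases x with i | i <;> rcases y with j | j <;> simp [pl] at e <;> subst e <;> simp [pr] at hy hy'
    exact hPall (pl y - pl x) (sub_ne_zero.2 (Ne.symm hxy)) x y (add_sub_cancel _ _).symm c
  · exact y.elim0

/-- The simple unitary groups are generated by two elements. -/
theorem exists_pair_PSU (hn : 3 ≤ n) (h32 : n = 3 → q ≠ 2) :
    ∃ a b : Cfsg.PSU n F q, Subgroup.closure ({a, b} : Set (Cfsg.PSU n F q)) = ⊤ := by
  have hn2 : ¬ (n = 3 ∧ q = 2) := fun h => h32 h.1 h.2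
  have hle := SUG_le_TG hF n (by omega) hn2
  obtain ⟨a, b, ha, hb, hab⟩ : ∃ a b : UG n F q, a ∈ SUG n F q ∧ b ∈ SUG n F q ∧
      TG n F q ≤ Subgroup.closure {a, b} := by
    rcases Nat.even_or_odd n with ⟨j, hj⟩ | ⟨j, hj⟩
    · obtain ⟨k, rfl⟩ : ∃ k, j = k + 1 := ⟨j - 1, by omega⟩
      obtain ⟨Φ⟩ := exists_frame hF (k := k) (r := 0) (by omega) (n := n) (by omega)
      exact exists_pair_even hF Φ (by omega)
    · obtain ⟨k, rfl⟩ : ∃ k, j = k + 1 := ⟨j - 1, by omega⟩
      obtain ⟨Φ⟩ := exists_frame hF (k := k) (r := 1) le_rfl (n := n) (by omega)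
      exact exists_pair_odd hF Φ (fun h => h32 (by omega))
  obtain ⟨φ⟩ := nonempty_PSU_equiv n F q
  let A : SUG n F q := ⟨a, ha⟩
  let B : SUG n F q := ⟨b, hb⟩
  have hAB : Subgroup.closure {A, B} = ⊤ := by
    refine Subgroup.map_injective (Subgroup.subtype_injective _) (le_antisymm ?_ ?_)
    · exact Subgroup.map_mono le_top
    · rw [← MonoidHom.range_eq_map, Subgroup.range_subtype, MonoidHom.map_closure, Set.image_pair]
      exact hle.trans hab
  let π := φ.symm.toMonoidHom.comp (QuotientGroup.mk' (Subgroup.center (SUG n F q)))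
  refine ⟨π A, π B, ?_⟩
  rw [← Set.image_pair π A B, ← MonoidHom.map_closure, hAB]
  exact Subgroup.map_top_of_surjective π (φ.symm.surjective.comp (QuotientGroup.mk'_surjective _))

end Cfsg.Agent.Spec.TwoGen.Unit2
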