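import Cfsg.Agent.Classical.USimple

/-!
A split basis of the standard Hermitian space, monomial and diagonal isometries, and the criterion
for a subgroup to contain the special unitary group.
-/

set_option autoImplicit false

namespace Cfsg.Agent.Spec.TwoGen.Unit2

open Cfsg.Agent.Classical.U

universe u

variable {F : Type u} [Field F] {n q : ℕ}

/-- Indices: `k + 1` hyperbolic pairs and `r` further unit vectors. -/
abbrev J (k r : ℕ) := (Fin (k + 1) ⊕ Fin (k + 1)) ⊕ Fin r

/-- The partner of an index. -/
def pr {k r : ℕ} : J k r → J k r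
  | .inl (.inl i) => .inl (.inr i)
  | .inl (.inr i) => .inl (.inl i)
  | .inr c => .inr c

@[simp] theorem pr_pr {k r : ℕ} (x : J k r) : pr (pr x) = x := by rcases x with (x | x) | x <;> rfl

theorem pr_ne {k r : ℕ} (x : Fin (k + 1) ⊕ Fin (k + 1)) : pr (Sum.inl x : J k r) ≠ Sum.inl x := by
  rcases x with x | x <;> simp [pr]

theorem pr_inj {k r : ℕ} {x y : J k r} : pr x = pr y ↔ x = y :=
  ⟨fun h => by rw [← pr_pr x, h, pr_pr], fun h => by rw [h]⟩

/-- A basis indexed by `J` with the split Gram matrix. -/
structure Frame (F : Type u) [Field F] (n q k r : ℕ) where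
  b : J k r → (Fin n → F)
  gram : ∀ x y, herm q (b x) (b y) = if y = pr x then 1 else 0
  decomp : ∀ v, v = ∑ x, herm q v (b (pr x)) • b x

variable (hF : SqField F q)
include hF

theorem exists_frame {k r : ℕ} (hr : r ≤ 1) (hn : n = 2 * (k + 1) + r) : Nonempty (Frame F n q k r) := by
  classical
  have hq := hF.q_ne_zero
  obtain ⟨θ, hθ⟩ := hF.exists_norm (c := -1) (by rw [hF.neg_pow, one_pow])
  obtain ⟨c, hc⟩ := hF.exists_trace (c := -1) (by rw [hF.neg_pow, one_pow])
  let i₀ : Fin (k + 1) → Fin n := fun i => ⟨2 * i.val, by omega⟩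
  let i₁ : Fin (k + 1) → Fin n := fun i => ⟨2 * i.val + 1, by omega⟩
  let j : Fin r → Fin n := fun x => ⟨2 * (k + 1) + x.val, by omega⟩
  have a01 : ∀ i i', i₀ i ≠ i₁ i' := fun i i' e => by simp [i₀, i₁, Fin.ext_iff] at e; omega
  have a0j : ∀ i x, i₀ i ≠ j x := fun i x e => by simp [i₀, j, Fin.ext_iff] at e; omega
  have a1j : ∀ i x, i₁ i ≠ j x := fun i x e => by simp [i₁, j, Fin.ext_iff] at e; omega
  have a00 : ∀ i i', i₀ i = i₀ i' ↔ i = i' := fun i i' => by simp [i₀, Fin.ext_iff]
  have a11 : ∀ i i', i₁ i = i₁ i' ↔ i = i' := fun i i' => by simp [i₁, Fin.ext_iff]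
  have ajj : ∀ x x' : Fin r, j x = j x' := fun x x' => by simp [j, Fin.ext_iff]; omega
  let e : Fin (k + 1) → Fin n → F := fun i => Pi.single (i₀ i) 1 + θ • Pi.single (i₁ i) 1
  let b : J k r → (Fin n → F) := fun x =>
    match x with
    | .inl (.inl i) => e i
    | .inl (.inr i) => Pi.single (i₀ i) 1 + c • e i
    | .inr x => Pi.single (j x) 1
  have gee : ∀ i i', herm q (e i) (e i') = 0 := by
    intro i i'
    simp only [e, herm_add_left, hF.herm_add_right, herm_smul_left, herm_smul_right, herm_single_one _ hq]
    rcases eq_or_ne i i' with rfl | h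
    · simp [a01, (a01 i i).symm]
      linear_combination hθ
    · have h0 : i₀ i ≠ i₀ i' := fun hh => h ((a00 i i').1 hh)
      have h1 : i₁ i ≠ i₁ i' := fun hh => h ((a11 i i').1 hh)
      simp [h0.symm, h1.symm, a01 i' i, (a01 i i').symm]
  have g0e : ∀ i i', herm q (Pi.single (i₀ i) 1 : Fin n → F) (e i') = if i' = i then 1 else 0 := by
    intro i i'
    simp only [e, hF.herm_add_right, herm_smul_right, herm_single_one _ hq]
    simp [Pi.single_apply, (a01 i i').symm, a00]
  have ge0 : ∀ i i', herm q (e i) (Pi.single (i₀ i') 1 : Fin n → F) = if i' = i then 1 else 0 := by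
    intro i i'
    simp only [e, herm_add_left, herm_smul_left, herm_single_one _ hq]
    simp [Pi.single_apply, a01 i' i, a00]
  have gje : ∀ x i, herm q (Pi.single (j x) 1 : Fin n → F) (e i) = 0 := by
    intro x i
    simp only [e, hF.herm_add_right, herm_smul_right, herm_single_one _ hq]
    simp [Pi.single_apply, a0j i x, a1j i x]
  have gej : ∀ x i, herm q (e i) (Pi.single (j x) 1 : Fin n → F) = 0 := fun x i => by
    rw [← hF.herm_symm, gje, zero_pow hq]
  have gram : ∀ x y, herm q (b x) (b y) = if y = pr x then 1 else 0 := by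
    intro x y
    rcases x with (i | i) | i <;> rcases y with (i' | i') | i' <;> simp only [b, pr]
    · rw [gee]; simp
    · rw [hF.herm_add_right, herm_smul_right, gee, ge0]; simp
    · rw [gej]; simp
    · rw [herm_add_left, herm_smul_left, gee, g0e]; simp
    · rw [herm_add_left, hF.herm_add_right, hF.herm_add_right, herm_smul_left, herm_smul_left, herm_smul_right,
        herm_smul_right, gee, ge0, g0e, herm_single_one _ hq]
      rcases eq_or_ne i i' with rfl | h
      · simp; linear_combination hc
      · simp [Pi.single_apply, a00, h, h.symm]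
    · rw [herm_add_left, herm_smul_left, gej, herm_single_one _ hq]
      simp [Pi.single_apply, (a0j i i').symm]
    · rw [gje]; simp
    · rw [hF.herm_add_right, herm_smul_right, gje, herm_single_one _ hq]
      simp [Pi.single_apply, a0j i' i]
    · obtain rfl : i' = i := Fin.ext (by omega)
      simp [herm_single_one _ hq]
  have hsum : ∀ (g : J k r → F) y, herm q (∑ x, g x • b x) (b (pr y)) = g y := by
    intro g y
    rw [show ∑ x, g x • b x = ∑ x ∈ Finset.univ, g x • b x from rfl]
    have hs : ∀ s : Finset (J k r), herm q (∑ x ∈ s, g x • b x) (b (pr y)) = ∑ x ∈ s, g x * herm q (b x) (b (pr y)) := by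
      intro s
      induction s using Finset.induction with
      | empty => simp
      | insert a s ha ih => rw [Finset.sum_insert ha, Finset.sum_insert ha, herm_add_left, herm_smul_left, ih]
    rw [hs, Finset.sum_eq_single y]
    · rw [gram, if_pos rfl, mul_one]
    · intro x _ hx
      rw [gram, if_neg (fun e => hx (pr_inj.1 e).symm), mul_zero]
    · simp
  have hli : LinearIndependent F b := by
    rw [Fintype.linearIndependent_iff]
    intro g hg y
    rw [← hsum g y, hg, herm_zero_left]
  have hcard : Fintype.card (J k r) = Module.finrank F (Fin n → F) := by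
    simp [Module.finrank_fin_fun]; omega
  refine ⟨⟨b, gram, fun v => ?_⟩⟩
  let B := basisOfLinearIndependentOfCardEqFinrank hli hcard
  have hB : ⇑B = b := coe_basisOfLinearIndependentOfCardEqFinrank hli hcard
  have hv : v = ∑ x, B.repr v x • b x := by rw [← hB]; exact (B.sum_repr v).symm
  conv_lhs => rw [hv]
  refine Finset.sum_congr rfl fun x _ => ?_
  congr 1
  conv_rhs => rw [hv]
  rw [hsum]

end Cfsg.Agent.Spec.TwoGen.Unit2
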