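import Cfsg.Agent.Spec.TwoGen.UnitFrame

/-!
Root subgroups, monomial isometries and the criterion for a subgroup to contain the special unitary
group.
-/

set_option autoImplicit false

namespace Cfsg.Agent.Spec.TwoGen.Unit2

open Cfsg.Agent.Classical.U

universe u

variable {F : Type u} [Field F] {n q k r : ℕ}

theorem herm_sum_left {ι : Type*} (s : Finset ι) (f : ι → (Fin n → F)) (v : Fin n → F) :
    herm q (∑ i ∈ s, f i) v = ∑ i ∈ s, herm q (f i) v := by
  classical
  induction s using Finset.induction with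
  | empty => simp
  | insert a s ha ih => rw [Finset.sum_insert ha, Finset.sum_insert ha, herm_add_left, ih]

variable (hF : SqField F q)
include hF

theorem herm_sum_right {ι : Type*} (s : Finset ι) (f : ι → (Fin n → F)) (v : Fin n → F) :
    herm q v (∑ i ∈ s, f i) = ∑ i ∈ s, herm q v (f i) := by
  rw [← hF.herm_symm, herm_sum_left, hF.sum_pow]
  exact Finset.sum_congr rfl fun i _ => hF.herm_symm _ _

variable (Φ : Frame F n q k r)

omit hF in
/-- A map permuting the basis lines. -/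
def Mon (g : UG n F q) (τ : J k r → J k r) (s : J k r → F) : Prop := ∀ x, g.1 (Φ.b x) = s x • Φ.b (τ x)

theorem exists_mon (τ : J k r → J k r) (hτi : Function.Injective τ) (hτ : ∀ x, τ (pr x) = pr (τ x)) (s : J k r → F)
    (hs : ∀ x, s x * s (pr x) ^ q = 1) : ∃ g : UG n F q, Mon Φ g τ s := by
  classical
  let L : (Fin n → F) →ₗ[F] (Fin n → F) :=
    { toFun := fun v => ∑ x, (herm q v (Φ.b (pr x)) * s x) • Φ.b (τ x)
      map_add' := fun u v => by
        rw [← Finset.sum_add_distrib]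
        exact Finset.sum_congr rfl fun x _ => by rw [herm_add_left, add_mul, add_smul]
      map_smul' := fun c v => by
        rw [RingHom.id_apply, Finset.smul_sum]
        exact Finset.sum_congr rfl fun x _ => by rw [herm_smul_left, smul_smul, mul_assoc] }
  have hL : ∀ u v, herm q (L u) (L v) = herm q u v := by
    intro u v
    conv_rhs => rw [Φ.decomp u, Φ.decomp v]
    simp only [L, LinearMap.coe_mk, AddHom.coe_mk, herm_sum_left, herm_sum_right hF, herm_smul_left, herm_smul_right,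
      Φ.gram, Finset.mul_sum]
    refine Finset.sum_congr rfl fun x _ => Finset.sum_congr rfl fun y _ => ?_
    by_cases e : x = pr y
    · subst e
      rw [if_pos rfl, if_pos (hτ y), mul_pow]
      linear_combination (herm q u (Φ.b (pr y)) * herm q v (Φ.b (pr (pr y))) ^ q) * hs y
    · rw [if_neg e, if_neg (fun h => e (hτi (by rw [h, hτ]))), mul_zero, mul_zero, mul_zero, mul_zero]
  refine ⟨⟨LinearEquiv.ofInjectiveEndo L (fun u v huv => sub_eq_zero.1
    (hF.eq_zero_of_herm _ fun w => by rw [herm_sub_left, ← hL u w, ← hL v w, huv, sub_self])), hL⟩, fun x => ?_⟩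
  show L (Φ.b x) = _
  simp only [L, LinearMap.coe_mk, AddHom.coe_mk, Φ.gram]
  rw [Finset.sum_eq_single x]
  · simp
  · intro y _ hy
    rw [if_neg (fun e => hy (pr_inj.1 e)), zero_mul, zero_smul]
  · simp

omit hF in
/-- The frame as a basis. -/
theorem exists_basis : ∃ B : Module.Basis (J k r) F (Fin n → F), ⇑B = Φ.b := by
  classical
  have hli : LinearIndependent F Φ.b := by
    rw [Fintype.linearIndependent_iff]
    intro g hg y
    have : herm q (∑ x, g x • Φ.b x) (Φ.b (pr y)) = g y := by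
      rw [herm_sum_left, Finset.sum_eq_single y]
      · rw [herm_smul_left, Φ.gram, if_pos rfl, mul_one]
      · intro x _ hx
        rw [herm_smul_left, Φ.gram, if_neg (fun e => hx (pr_inj.1 e).symm), mul_zero]
      · simp
    rw [← this, hg, herm_zero_left]
  refine ⟨Module.Basis.mk hli ?_, Module.Basis.coe_mk _ _⟩
  rintro v -
  rw [Φ.decomp v]
  exact Submodule.sum_mem _ fun x _ => Submodule.smul_mem _ _ (Submodule.subset_span (Set.mem_range_self x))

omit hF in
theorem det_mon_id {g : UG n F q} {s : J k r → F} (h : Mon Φ g id s) :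
    ((LinearEquiv.det g.1 : Fˣ) : F) = ∏ x, s x := by
  classical
  obtain ⟨B, hB⟩ := exists_basis Φ
  rw [LinearEquiv.coe_det, ← LinearMap.det_toMatrix B, show LinearMap.toMatrix B B g.1.toLinearMap = Matrix.diagonal s by
    ext i j
    rw [LinearMap.toMatrix_apply, LinearEquiv.coe_coe, hB, h j, id, ← hB, map_smul, B.repr_self]
    rcases eq_or_ne i j with rfl | hij
    · simp
    · simp [Matrix.diagonal_apply_ne _ hij, hij], Matrix.det_diagonal]

omit hF in
theorem ext_frame {g g' : UG n F q} (h : ∀ x, g.1 (Φ.b x) = g'.1 (Φ.b x)) : g = g' := by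
  refine Subtype.ext (LinearEquiv.ext fun v => ?_)
  rw [Φ.decomp v, map_sum, map_sum]
  exact Finset.sum_congr rfl fun x _ => by rw [map_smul, map_smul, h x]

omit hF in
theorem Mon.mul {g g' : UG n F q} {τ τ' : J k r → J k r} {s s' : J k r → F} (h : Mon Φ g τ s) (h' : Mon Φ g' τ' s') :
    Mon Φ (g * g') (τ ∘ τ') (fun x => s' x * s (τ' x)) := fun x => by
  rw [Subgroup.coe_mul, LinearEquiv.mul_apply, h', map_smul, h, smul_smul]; rfl

theorem b_isotropic (x : Fin (k + 1) ⊕ Fin (k + 1)) : herm q (Φ.b (.inl x)) (Φ.b (.inl x)) = 0 := by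
  rw [Φ.gram, if_neg (pr_ne x).symm]

/-- The unipotent at a basis vector with some parameter lies in `H`. -/
def Sv (H : Subgroup (UG n F q)) (x : J k r) (v : Fin n → F) : Prop :=
  ∃ (a : F) (h : UniCond q (Φ.b x) v a), uni hF h ∈ H

/-- A long root group lies in `H`. -/
def TF (H : Subgroup (UG n F q)) (x : J k r) : Prop :=
  ∀ (a : F) (h : UniCond q (Φ.b x) 0 a), uni hF h ∈ H

variable {hF Φ}

theorem Sv.add {H : Subgroup (UG n F q)} {x : J k r} {v w : Fin n → F} (h : Sv hF Φ H x v) (h' : Sv hF Φ H x w) :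
    Sv hF Φ H x (v + w) := by
  obtain ⟨a, ha, hm⟩ := h
  obtain ⟨b, hb, hm'⟩ := h'
  exact ⟨_, uniCond_mul hF ha hb, by rw [← uni_mul hF ha hb]; exact mul_mem hm hm'⟩

theorem Sv.all {H : Subgroup (UG n F q)} {x : J k r} {v : Fin n → F} (hT : TF hF Φ H x) (h : Sv hF Φ H x v) {a : F}
    (ha : UniCond q (Φ.b x) v a) : uni hF ha ∈ H := by
  obtain ⟨b, hb, htb⟩ := h
  have hc : UniCond q (Φ.b x) 0 (a - b) := by
    refine ⟨hb.1, herm_zero_left _, ?_⟩
    rw [herm_zero_left, hF.sub_pow]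
    linear_combination ha.2.2 - hb.2.2
  have := mul_mem (hT _ hc) htb
  rw [uni_mul] at this
  convert this using 1
  exact uni_congr hF _ _ rfl (by rw [zero_add]) (by rw [hF.herm_zero_right]; ring)

/-- Conjugation by an element of `H` sending a basis vector to a multiple of one. -/
theorem conj_mem {H : Subgroup (UG n F q)} {g : UG n F q} (hg : g ∈ H) {x x' : J k r} {s : F}
    (hx : g.1 (Φ.b x) = s • Φ.b x') {v : Fin n → F} {a : F} (h : UniCond q (Φ.b x) v a) (hm : uni hF h ∈ H) :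
    ∃ h' : UniCond q (Φ.b x') (s ^ q • g.1 v) (s * s ^ q * a), uni hF h' ∈ H := by
  have hs : s ≠ 0 := by
    rintro rfl
    rw [zero_smul, LinearEquiv.map_eq_zero_iff] at hx
    have := Φ.gram x (pr x)
    rw [hx, herm_zero_left, if_pos rfl] at this
    exact zero_ne_one this
  have hc : UniCond q (s • Φ.b x') (g.1 v) a := by
    rw [← hx]
    exact ⟨by rw [UG_app]; exact h.1, by rw [UG_app]; exact h.2.1, by rw [UG_app]; exact h.2.2⟩
  have hc' : UniCond q (Φ.b x') (s ^ q • g.1 v) (s * s ^ q * a) := by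
    have h1 : herm q (Φ.b x') (Φ.b x') = 0 := by
      have := hc.1
      rw [herm_smul_left, herm_smul_right, ← mul_assoc] at this
      exact (mul_eq_zero.1 this).resolve_left (mul_ne_zero hs (pow_ne_zero _ hs))
    refine ⟨h1, ?_, ?_⟩
    · rw [herm_smul_left, ← herm_smul_right]; exact hc.2.1
    · rw [herm_smul_left, herm_smul_right, hF.pow_pow, mul_pow, mul_pow, hF.pow_pow]
      linear_combination s * s ^ q * hc.2.2
  refine ⟨hc', ?_⟩
  have := mul_mem (mul_mem hg hm) (inv_mem hg)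
  rwa [uni_conj, uni_congr hF _ hc hx rfl rfl, uni_smul hF hc hc'] at this

theorem Sv.map {H : Subgroup (UG n F q)} {g : UG n F q} (hg : g ∈ H) {x x' : J k r} {s : F}
    (hx : g.1 (Φ.b x) = s • Φ.b x') {v : Fin n → F} (h : Sv hF Φ H x v) :
    Sv hF Φ H x' (s ^ q • g.1 v) := by
  obtain ⟨a, ha, hm⟩ := h
  obtain ⟨h', hm'⟩ := conj_mem hg hx ha hm
  exact ⟨_, h', hm'⟩

theorem TF.map {H : Subgroup (UG n F q)} {g : UG n F q} (hg : g ∈ H) {x x' : J k r} {s : F} (hs : s ≠ 0)
    (hx : g.1 (Φ.b x) = s • Φ.b x') (h : TF hF Φ H x) : TF hF Φ H x' := by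
  intro a ha
  have hN : (s * s ^ q) ^ q = s * s ^ q := by rw [mul_pow, hF.pow_pow, mul_comm]
  have hne : s * s ^ q ≠ 0 := mul_ne_zero hs (pow_ne_zero _ hs)
  have h0 : UniCond q (Φ.b x) 0 (a / (s * s ^ q)) := by
    refine ⟨?_, herm_zero_left _, ?_⟩
    · rw [← UG_app g, hx, herm_smul_left, herm_smul_right, ha.1, mul_zero, mul_zero]
    · have := ha.2.2
      rw [herm_zero_left, add_zero] at this ⊢
      rw [div_pow, hN, ← add_div, this, zero_div]
  obtain ⟨h', hm'⟩ := conj_mem hg hx h0 (h _ h0)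
  convert hm' using 1
  exact uni_congr hF _ _ rfl (by simp) (by field_simp)

/-- The commutator of two unipotents at the same vector. -/
theorem comm_same {H : Subgroup (UG n F q)} {x : J k r} {v w : Fin n → F} (h : Sv hF Φ H x v) (h' : Sv hF Φ H x w) :
    ∃ hd : UniCond q (Φ.b x) 0 (herm q v w - herm q w v), uni hF hd ∈ H := by
  obtain ⟨a, ha, hm⟩ := h
  obtain ⟨b, hb, hm'⟩ := h'
  have hd : UniCond q (Φ.b x) 0 (herm q v w - herm q w v) := by
    refine ⟨ha.1, herm_zero_left _, ?_⟩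
    rw [hF.sub_pow, hF.herm_symm, hF.herm_symm, herm_zero_left]
    ring
  refine ⟨hd, ?_⟩
  have e : uni hF hd * (uni hF hb * uni hF ha) = uni hF ha * uni hF hb := by
    rw [uni_mul, uni_mul, uni_mul]
    exact uni_congr hF _ _ rfl (by rw [zero_add, add_comm]) (by rw [hF.herm_zero_right]; ring)
  have := mul_mem (mul_mem hm hm') (inv_mem (mul_mem hm' hm))
  rwa [← e, mul_inv_cancel_right] at this

/-- The commutator of a unipotent with an element fixing its vector. -/
theorem comm_move {H : Subgroup (UG n F q)} {g : UG n F q} (hg : g ∈ H) {x : J k r} (hx : g.1 (Φ.b x) = Φ.b x)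
    {v : Fin n → F} {a : F} (ha : UniCond q (Φ.b x) v a) (hm : uni hF ha ∈ H) :
    ∃ h' : UniCond q (Φ.b x) (g.1 v - v) (herm q v (g.1 v - v)), uni hF h' ∈ H := by
  have hgv : UniCond q (Φ.b x) (g.1 v) a :=
    ⟨ha.1, by rw [← hx, UG_app]; exact ha.2.1, by rw [UG_app]; exact ha.2.2⟩
  have hny : UniCond q (Φ.b x) (-v) (a ^ q) := by
    refine ⟨ha.1, by rw [herm_neg_left, ha.2.1, neg_zero], ?_⟩
    rw [hF.pow_pow, herm_neg_left, hF.herm_neg_right, neg_neg]
    linear_combination ha.2.2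
  have hinv : (uni hF ha)⁻¹ = uni hF hny := by
    apply inv_eq_of_mul_eq_one_right
    rw [uni_mul, ← uni_zero hF ha.1]
    exact uni_congr hF _ _ rfl (add_neg_cancel v) (by rw [herm_neg_left]; linear_combination ha.2.2)
  have hA : g * uni hF ha * g⁻¹ * (uni hF ha)⁻¹ ∈ H := mul_mem (mul_mem (mul_mem hg hm) (inv_mem hg)) (inv_mem hm)
  rw [uni_conj, uni_congr hF _ hgv hx rfl rfl, hinv, uni_mul] at hA
  have e : a + a ^ q - herm q (-v) (g.1 v) = herm q v (g.1 v - v) := by
    rw [herm_neg_left, hF.herm_sub_right]; linear_combination ha.2.2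
  have h' : UniCond q (Φ.b x) (g.1 v - v) (herm q v (g.1 v - v)) := by
    rw [← e, sub_eq_add_neg (g.1 v)]
    exact uniCond_mul hF hgv hny
  exact ⟨h', by convert hA using 1; exact uni_congr hF _ _ rfl (sub_eq_add_neg _ _) e.symm⟩

theorem Sv.move {H : Subgroup (UG n F q)} {g : UG n F q} (hg : g ∈ H) {x : J k r} (hx : g.1 (Φ.b x) = Φ.b x)
    {v : Fin n → F} (h : Sv hF Φ H x v) : Sv hF Φ H x (g.1 v - v) := by
  obtain ⟨a, ha, hm⟩ := h
  obtain ⟨h', hm'⟩ := comm_move hg hx ha hm
  exact ⟨_, h', hm'⟩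

/-- All root groups give all transvections. -/
theorem TG_le_of_roots (hr : r ≤ 1) {H : Subgroup (UG n F q)} (hT : ∀ x, TF hF Φ H (.inl x))
    (hS : ∀ x y, y ≠ Sum.inl x → y ≠ pr (Sum.inl x) → ∀ c : F, Sv hF Φ H (.inl x) (c • Φ.b y)) :
    TG n F q ≤ H := by
  classical
  have base : ∀ (x : Fin (k + 1) ⊕ Fin (k + 1)) (v : Fin n → F) (a : F) (h : UniCond q (Φ.b (.inl x)) v a),
      uni hF h ∈ H := by
    intro x v a h
    refine Sv.all (hT x) ?_ h
    have h0 : Sv hF Φ H (.inl x) 0 := ⟨0, uniCond_zero hF h.1, by rw [uni_zero hF h.1]; exact one_mem H⟩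
    rw [Φ.decomp v]
    refine Finset.sum_induction _ (Sv hF Φ H (.inl x)) (fun _ _ => Sv.add) h0 fun y _ => ?_
    rcases eq_or_ne y (pr (Sum.inl x)) with rfl | hy
    · rw [pr_pr, h.2.1, zero_smul]; exact h0
    rcases eq_or_ne y (Sum.inl x) with rfl | hy'
    · set c := herm q v (Φ.b (pr (Sum.inl x)))
      have hu : UniCond q (Φ.b (.inl x)) (c • Φ.b (.inl x)) 0 :=
        ⟨h.1, by rw [herm_smul_left, h.1, mul_zero],
          by rw [zero_pow hF.q_ne_zero, herm_smul_left, herm_smul_right, h.1]; ring⟩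
      have ht : UniCond q (Φ.b (.inl x)) 0 (-c ^ q + c) := ⟨h.1, herm_zero_left _, by
        rw [herm_zero_left, hF.add_pow, hF.neg_pow, hF.pow_pow]; ring⟩
      refine ⟨0, hu, ?_⟩
      convert hT x _ ht using 1
      refine Subtype.ext (LinearEquiv.ext fun w => ?_)
      rw [uni_apply, uni_apply, herm_smul_right, hF.herm_zero_right]
      module
    · exact hS x y hy' hy _
  rw [TG, Subgroup.closure_le]
  rintro g ⟨e, a, hc, hg⟩
  rw [mem_TG_generator hF hc hg]
  rcases eq_or_ne e 0 with rfl | he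
  · have : trv hF hc = 1 := by ext w i; simp [trv_apply, hF.herm_zero_right]
    rw [this]; exact one_mem _
  obtain ⟨x, hx⟩ : ∃ x, herm q e (Φ.b (pr (Sum.inl x))) ≠ 0 := by
    by_contra hcon
    push Not at hcon
    apply he
    have hd := Φ.decomp e
    rw [Fintype.sum_sum_type, Finset.sum_eq_zero (fun x _ => by rw [hcon x, zero_smul]), zero_add] at hd
    rcases Nat.le_one_iff_eq_zero_or_eq_one.1 hr with rfl | rfl
    · rw [hd]; simp
    · rw [Fintype.sum_unique] at hd
      have := hc.1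
      rw [hd, herm_smul_left, herm_smul_right, Φ.gram, if_pos (show (Sum.inr default : J k 1) = pr (Sum.inr default) from rfl), mul_one] at this
      rcases mul_eq_zero.1 this with h | h
      · rw [hd, h, zero_smul]
      · rw [hd, eq_zero_of_pow_eq_zero h, zero_smul]
  set c := herm q e (Φ.b (pr (Sum.inl x))) with hcdef
  have p1 : IsUPair q (Φ.b (pr (Sum.inl x))) (Φ.b (.inl x)) := by
    refine ⟨?_, b_isotropic hF Φ x, by rw [Φ.gram, if_pos (pr_pr _).symm]⟩
    rw [Φ.gram, if_neg]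
    rw [pr_pr]
    exact pr_ne x
  have p2 : IsUPair q (Φ.b (pr (Sum.inl x))) (c⁻¹ • e) := by
    refine ⟨p1.1, by rw [herm_smul_left, herm_smul_right, hc.1, mul_zero, mul_zero], ?_⟩
    rw [herm_smul_right, ← hF.herm_symm e, ← hcdef, ← mul_pow, inv_mul_cancel₀ hx, one_pow]
  obtain ⟨v, b, hcu, -, hmove⟩ := exists_uni_partner hF p1 p2
  have hu : uni hF hcu ∈ H := by
    obtain ⟨x', hx'⟩ : ∃ x', pr (Sum.inl x : J k r) = Sum.inl x' := by rcases x with i | i <;> exact ⟨_, rfl⟩
    have hcu' : UniCond q (Φ.b (Sum.inl x')) v b := by rw [← hx']; exact hcu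
    rw [uni_congr hF hcu hcu' (by rw [hx']) rfl rfl]
    exact base x' v b hcu'
  have h0 : UniCond q (Φ.b (.inl x)) 0 (c * c ^ q * a) := by
    refine ⟨b_isotropic hF Φ x, herm_zero_left _, ?_⟩
    rw [herm_zero_left, mul_pow, mul_pow, hF.pow_pow, hc.2]
    ring
  have hmem := mul_mem (mul_mem hu (base x 0 _ h0)) (inv_mem hu)
  have e1 : uni hF hcu * uni hF h0 * (uni hF hcu)⁻¹ = trv hF hc := by
    rw [uni_conj]
    refine Subtype.ext (LinearEquiv.ext fun w => ?_)
    rw [uni_apply, trv_apply, hmove, map_zero, hF.herm_zero_right, herm_smul_right, smul_zero, add_zero, sub_zero,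
      smul_smul, inv_pow]
    congr 2
    field_simp
  exact e1 ▸ hmem

variable (hF)

omit hF in
theorem subring_top [Finite F] (hF : SqField F q) (R : Subring F) {χ : F} (h0 : χ ≠ 0) (hχ : χ ∈ R)
    (ho : q ≤ orderOf χ) (x : F) : x ∈ R := by
  classical
  obtain ⟨-, hcard⟩ := hF
  have := Fintype.ofFinite F
  let K : Subfield F :=
    { R with
      inv_mem' := fun y hy => by
        rcases eq_or_ne y 0 with rfl | hy0
        · rw [inv_zero]; exact R.zero_mem
        have h2 : y⁻¹ = y ^ (Fintype.card F - 2) := by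
          refine inv_eq_of_mul_eq_one_right ?_
          have h1 : 2 ≤ Fintype.card F := Fintype.one_lt_card
          rw [← pow_succ', show Fintype.card F - 2 + 1 = Fintype.card F - 1 by omega,
            FiniteField.pow_card_sub_one_eq_one _ hy0]
        rw [h2]
        exact R.pow_mem hy _ }
  have hK : q < Nat.card K := by
    let f : Option (Fin (orderOf χ)) → K := fun o => o.elim 0 fun i => ⟨χ ^ i.val, R.pow_mem hχ _⟩
    have hinj : Function.Injective f := by
      rintro (_ | i) (_ | j) e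
      · rfl
      · exact absurd (congrArg Subtype.val e).symm (pow_ne_zero _ h0)
      · exact absurd (congrArg Subtype.val e) (pow_ne_zero _ h0)
      · exact congrArg some (Fin.ext (pow_injOn_Iio_orderOf i.2 j.2 (congrArg Subtype.val e)))
    have := Nat.card_le_card_of_injective f hinj
    simp [Nat.card_eq_fintype_card] at this ⊢
    omega
  have hd := Module.natCard_eq_pow_finrank (K := K) (V := F)
  rcases Nat.lt_or_ge (Module.finrank K F) 2 with hlt | hge
  · have hle : Nat.card F ≤ Nat.card K := by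
      rw [hd]
      calc Nat.card K ^ Module.finrank K F ≤ Nat.card K ^ 1 :=
            Nat.pow_le_pow_right Nat.card_pos (by omega)
        _ = Nat.card K := pow_one _
    have hs : Function.Surjective (Subtype.val : K → F) :=
      ((Nat.bijective_iff_injective_and_card _).2 ⟨Subtype.val_injective,
        le_antisymm (Nat.card_le_card_of_injective _ Subtype.val_injective) hle⟩).2
    obtain ⟨y, rfl⟩ := hs x
    exact y.2
  · have : q ^ 2 < Nat.card F := by
      rw [hd]
      exact lt_of_lt_of_le (Nat.pow_lt_pow_left hK two_ne_zero) (Nat.pow_le_pow_right Nat.card_pos hge)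
    omega

/-- A family of elements indexed additively by the field, from one commutator. -/
theorem family_all {G : Type*} [Group G] (H : Subgroup G) (Rel : F → G → Prop) (h1 : Rel 0 1)
    (hmul : ∀ c d g g', Rel c g → Rel d g' → Rel (c + d) (g * g')) (hinv : ∀ c g, Rel c g → Rel (-c) g⁻¹)
    {h h' u : G} {χ χ' c : F} (hh : ∀ c g, Rel c g → Rel (χ * c) (h * g * h⁻¹))
    (hh' : ∀ c g, Rel c g → Rel (χ' * c) (h' * g * h'⁻¹)) (hcomm : h' * h = h * h') (hm : h ∈ H)
    (hu : u * h' * u⁻¹ ∈ H) (hc : Rel c u) (hc0 : c ≠ 0) (hχ0 : χ ≠ 0) (hχ : χ ≠ 1) (hχ' : χ' ≠ 1)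
    (ho : q ≤ orderOf χ) (d : F) : ∃ g ∈ H, Rel d g := by
  obtain ⟨hfin, -⟩ := id hF
  set v := u * (h' * u⁻¹ * h'⁻¹) with hv
  have rv : Rel (c - χ' * c) v := by
    rw [sub_eq_add_neg, ← mul_neg]
    exact hmul _ _ _ _ hc (hh' _ _ (hinv _ _ hc))
  set c₀ := (c - χ' * c) + χ * -(c - χ' * c) with hc₀
  have hw : v * (h * v⁻¹ * h⁻¹) ∈ H := by
    have := mul_mem (mul_mem (mul_mem hu hm) (inv_mem hu)) (inv_mem hm)
    rw [show u * h' * u⁻¹ = v * h' by rw [hv]; group, show v * h' * h * (v * h')⁻¹ * h⁻¹ =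
      v * (h' * h * h'⁻¹ * v⁻¹ * h⁻¹) by group, hcomm, mul_inv_cancel_right] at this
    exact this
  have rw0 : Rel c₀ (v * (h * v⁻¹ * h⁻¹)) := hmul _ _ _ _ rv (hh _ _ (hinv _ _ rv))
  have hc₀0 : c₀ ≠ 0 := by
    rw [show c₀ = c * (1 - χ') * (1 - χ) by rw [hc₀]; ring]
    exact mul_ne_zero (mul_ne_zero hc0 (sub_ne_zero.2 (Ne.symm hχ'))) (sub_ne_zero.2 (Ne.symm hχ))
  let A : AddSubgroup F :=
    { carrier := {d | ∃ g ∈ H, Rel d g}
      add_mem' := fun ⟨g, hg, r1⟩ ⟨g', hg', r2⟩ => ⟨g * g', mul_mem hg hg', hmul _ _ _ _ r1 r2⟩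
      zero_mem' := ⟨1, one_mem H, h1⟩
      neg_mem' := fun ⟨g, hg, r1⟩ => ⟨g⁻¹, inv_mem hg, hinv _ _ r1⟩ }
  let R : Subring F :=
    { carrier := {t | ∀ z ∈ A, t * z ∈ A}
      mul_mem' := fun {a b} ha hb z hz => by rw [mul_assoc]; exact ha _ (hb z hz)
      one_mem' := fun z hz => by rwa [one_mul]
      add_mem' := fun {a b} ha hb z hz => by rw [add_mul]; exact A.add_mem (ha z hz) (hb z hz)
      zero_mem' := fun z _ => by rw [zero_mul]; exact A.zero_mem
      neg_mem' := fun {a} ha z hz => by rw [neg_mul]; exact A.neg_mem (ha z hz) }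
  have hR : χ ∈ R := fun z ⟨g, hg, r1⟩ => ⟨h * g * h⁻¹, mul_mem (mul_mem hm hg) (inv_mem hm), hh _ _ r1⟩
  have := subring_top hF R hχ0 hR ho (d / c₀) c₀ ⟨_, hw, rw0⟩
  rwa [div_mul_cancel₀ _ hc₀0] at this

end Cfsg.Agent.Spec.TwoGen.Unit2
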